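import Mathlib.Data.Fintype.Card
import Mathlib.Data.Fintype.Sum
import Mathlib.Algebra.BigOperators.Fin
import Mathlib.Algebra.Order.BigOperators.Group.Finset
import Mathlib.Data.Finset.Powerset
import Mathlib.Data.Nat.Prime.Basic
import Mathlib.Algebra.Ring.Int.Parity
import Mathlib.Tactic

/-!
# Integer vectors with the Gram matrix of the relations of a semidihedral or quaternion block

The relation `E` of norm four, the relations `f` and `g` of norm three, and the columns
`T = -E - 2 ∑ κ f`, `Q = -E + 2 g`, whose form has the exact `2`-parts of the heights.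
-/

set_option autoImplicit false

open scoped Classical

namespace Cfsg.Agent.H40.Tame.Comb

variable {β : Type*} [Fintype β]

/-- The column `T`. -/
def colT {m : ℕ} (E : β → ℤ) (f : Fin m → β → ℤ) (κ : Fin m → ℤ) (χ : β) : ℤ :=
  -E χ - 2 * ∑ x, κ x * f x χ

/-- The column `Q`. -/
def colQ (E g : β → ℤ) (χ : β) : ℤ := -E χ + 2 * g χ

/-- The form. -/
def form {m e : ℕ} (q : ℕ) (E : β → ℤ) (f : Fin m → β → ℤ) (g : Fin e → β → ℤ) (κ : Fin m → ℤ)
    (χ ψ : β) : ℤ :=
  (q : ℤ) * ∑ i, colQ E (g i) χ * colQ E (g i) ψ + colT E f κ χ * colT E f κ ψ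

/-- The data, for `q = 2 ^ a`. -/
structure Images (a e : ℕ) (E : β → ℤ) (f : Fin (2 * 2 ^ a - 1) → β → ℤ) (g : Fin e → β → ℤ)
    (κ : Fin (2 * 2 ^ a - 1) → ℤ) (ht : β → ℕ) (deg : β → ℤ) : Prop where
  e_le : e ≤ 2
  ee : ∑ χ, E χ * E χ = 4
  ef : ∀ x, ∑ χ, E χ * f x χ = 2
  eg : ∀ i, ∑ χ, E χ * g i χ = 2
  ff : ∀ x y, ∑ χ, f x χ * f y χ = if x = y then 3 else 2
  fg : ∀ x i, ∑ χ, f x χ * g i χ = 1
  gg : ∀ i j, ∑ χ, g i χ * g j χ = if i = j then 3 else 1
  κ_sum : ∑ x, κ x = -1
  κ_sign : ∀ x, κ x = 1 ∨ κ x = -1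
  odd : ∀ χ, Odd (E χ) ↔ ht χ = 0
  exists_zero : ∃ χ, ht χ = 0
  deg_pos : ∀ χ, 0 < deg χ
  deg_f : ∀ x, ∑ χ, deg χ * f x χ = 0
  deg_g : ∀ i, ∑ χ, deg χ * g i χ = 0
  exact : ∀ χ₀, ht χ₀ = 0 → ∀ χ, ∃ m : ℤ, Odd m ∧ form (2 ^ a) E f g κ χ₀ χ = 2 ^ ht χ * m
  card_ge : 2 * 2 ^ a + 2 ≤ Fintype.card β

theorem natAbs_le_one_of_sq_le {x : ℤ} (h : x * x ≤ 3) : x = 0 ∨ x = 1 ∨ x = -1 := by
  have h1 : x ≤ 1 := by nlinarith
  have h2 : -1 ≤ x := by nlinarith
  omega

/-- A vector of norm three with product two against `E`: two members of height zero and one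
other. -/
theorem exists_shape {E u : β → ℤ} (hE : ∀ χ, E χ = 0 ∨ E χ = 1 ∨ E χ = -1)
    (hu : ∑ χ, u χ * u χ = 3) (hEu : ∑ χ, E χ * u χ = 2) :
    ∃ (P : Finset β) (w : β) (s : ℤ), P.card = 2 ∧ (∀ χ ∈ P, E χ ≠ 0) ∧ E w = 0 ∧
      (s = 1 ∨ s = -1) ∧ ∀ χ, u χ = (if χ ∈ P then E χ else 0) + if χ = w then s else 0 := by
  have hu1 : ∀ χ, u χ = 0 ∨ u χ = 1 ∨ u χ = -1 := fun χ => natAbs_le_one_of_sq_le
    (hu ▸ Finset.single_le_sum (f := fun χ => u χ * u χ) (fun y _ => mul_self_nonneg (u y))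
      (Finset.mem_univ χ))
  set P := Finset.univ.filter fun χ => E χ * u χ = 1
  set N := Finset.univ.filter fun χ => E χ * u χ = -1
  set R := Finset.univ.filter fun χ => E χ = 0 ∧ u χ ≠ 0
  have h2 : ((P.card : ℤ) - N.card) = 2 := by
    rw [← hEu, Finset.card_filter, Finset.card_filter]
    push_cast
    rw [← Finset.sum_sub_distrib]
    refine Finset.sum_congr rfl fun χ _ => ?_
    rcases hE χ with h | h | h <;> rcases hu1 χ with h' | h' | h' <;> simp [h, h']
  have h3 : (P.card : ℤ) + N.card + R.card = 3 := by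
    rw [← hu, Finset.card_filter, Finset.card_filter, Finset.card_filter]
    push_cast
    rw [← Finset.sum_add_distrib, ← Finset.sum_add_distrib]
    refine Finset.sum_congr rfl fun χ _ => ?_
    rcases hE χ with h | h | h <;> rcases hu1 χ with h' | h' | h' <;> simp [h, h']
  have hN : N = ∅ := Finset.card_eq_zero.1 (by omega)
  obtain ⟨w, hw⟩ := Finset.card_eq_one.1 (show R.card = 1 by omega)
  have hwR : w ∈ R := hw ▸ Finset.mem_singleton_self w
  simp only [R, Finset.mem_filter, Finset.mem_univ, true_and] at hwR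
  refine ⟨P, w, u w, by omega, fun χ hχ e => ?_, hwR.1, ?_, fun χ => ?_⟩
  · simp [P, e] at hχ
  · rcases hu1 w with h | h | h
    · exact absurd h hwR.2
    · exact Or.inl h
    · exact Or.inr h
  · by_cases hP : χ ∈ P
    · rw [if_pos hP, if_neg (fun e => by subst e; simp [P, hwR.1] at hP), add_zero]
      simp only [P, Finset.mem_filter, Finset.mem_univ, true_and] at hP
      rcases hE χ with h | h | h <;> rcases hu1 χ with h' | h' | h' <;> simp_all
    · rw [if_neg hP, zero_add]
      by_cases hχw : χ = w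
      · rw [if_pos hχw, hχw]
      · rw [if_neg hχw]
        by_contra h0
        have hR : χ ∉ R := by simpa [hw] using hχw
        have hN' : χ ∉ N := by simp [hN]
        simp only [P, N, R, Finset.mem_filter, Finset.mem_univ, true_and] at hP hR hN'
        rcases hE χ with h | h | h <;> rcases hu1 χ with h' | h' | h' <;> simp_all

/-- The product of two shapes. -/
theorem shape_mul {E u u' : β → ℤ} {P P' : Finset β} {w w' : β} {s s' : ℤ}
    (hE : ∀ χ, E χ = 0 ∨ E χ = 1 ∨ E χ = -1) (hP : ∀ χ ∈ P, E χ ≠ 0) (hP' : ∀ χ ∈ P', E χ ≠ 0)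
    (hw : E w = 0) (hw' : E w' = 0)
    (hu : ∀ χ, u χ = (if χ ∈ P then E χ else 0) + if χ = w then s else 0)
    (hu' : ∀ χ, u' χ = (if χ ∈ P' then E χ else 0) + if χ = w' then s' else 0) :
    ∑ χ, u χ * u' χ = ((P ∩ P').card : ℤ) + if w = w' then s * s' else 0 := by
  have hwP : w ∉ P' := fun h => hP' w h hw
  have hwP' : w' ∉ P := fun h => hP w' h hw'
  have h1 : ∀ χ, u χ * u' χ = (if χ ∈ P ∩ P' then (1 : ℤ) else 0) +
      if χ = w then (if w = w' then s * s' else 0) else 0 := by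
    intro χ
    rw [hu, hu']
    by_cases hχ : χ = w
    · subst hχ
      have : χ ∉ P := fun h => hP χ h hw
      by_cases hww : χ = w'
      · subst hww; simp [this, hwP]
      · simp [hww, this, hwP]
    · by_cases h : χ ∈ P
      · have hne : χ ≠ w' := fun e => hwP' (e ▸ h)
        have hEE : E χ * E χ = 1 := by
          rcases hE χ with h0 | h0 | h0
          · exact absurd h0 (hP χ h)
          all_goals simp [h0]
        by_cases h' : χ ∈ P' <;> simp [hχ, h, h', hne, hEE]
      · simp [hχ, h]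
  rw [Finset.sum_congr rfl fun χ _ => h1 χ, Finset.sum_add_distrib, Finset.sum_ite_mem,
    Finset.univ_inter, Finset.sum_const, Finset.sum_ite_eq' Finset.univ w,
    if_pos (Finset.mem_univ _)]
  simp

/-- Pairs in a set of four which meet pairwise in one point are at most three. -/
theorem card_pairs_le {ι : Type*} [Fintype ι] {F : Finset β} (hF : F.card = 4) (P : ι → Finset β)
    (hP : ∀ i, P i ⊆ F ∧ (P i).card = 2) (hmeet : ∀ i j, i ≠ j → (P i ∩ P j).card = 1) :
    Fintype.card ι ≤ 3 := by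
  obtain ⟨a, ha⟩ := Finset.card_pos.1 (show 0 < F.card by omega)
  let m : ι → Finset β := fun i => if a ∈ P i then P i else F \ P i
  have hm : ∀ i, m i ∈ (F.powersetCard 2).filter (a ∈ ·) := fun i => by
    simp only [m, Finset.mem_filter, Finset.mem_powersetCard]
    split_ifs with h
    · exact ⟨hP i, h⟩
    · exact ⟨⟨Finset.sdiff_subset, by rw [Finset.card_sdiff_of_subset (hP i).1, hF, (hP i).2]⟩,
        Finset.mem_sdiff.2 ⟨ha, h⟩⟩
  have hinj : Function.Injective m := by
    intro i j hij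
    by_contra hne
    have h1 := hmeet i j hne
    simp only [m] at hij
    split_ifs at hij with hi hj hj
    · rw [hij, Finset.inter_self, (hP j).2] at h1; omega
    · rw [hij, Finset.sdiff_inter_self, Finset.card_empty] at h1; omega
    · rw [← hij, Finset.inter_sdiff_self, Finset.card_empty] at h1; omega
    · have he : P i = P j := by
        rw [← Finset.inter_eq_right.2 (hP i).1, ← Finset.inter_eq_right.2 (hP j).1,
          ← Finset.sdiff_sdiff_self_left F (P i), hij, Finset.sdiff_sdiff_self_left]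
      rw [he, Finset.inter_self, (hP j).2] at h1; omega
  have h3 : ((F.powersetCard 2).filter (a ∈ ·)).card ≤ 3 := by
    have hsub : (F.powersetCard 2).filter (a ∈ ·) ⊆ (F.erase a).image fun b => {a, b} := by
      intro S hS
      simp only [Finset.mem_filter, Finset.mem_powersetCard] at hS
      obtain ⟨⟨hSF, hS2⟩, haS⟩ := hS
      obtain ⟨b, hb⟩ := Finset.card_eq_one.1
        (show (S.erase a).card = 1 by rw [Finset.card_erase_of_mem haS, hS2])
      refine Finset.mem_image.2 ⟨b, ?_, ?_⟩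
      · exact Finset.erase_subset_erase a hSF (hb ▸ Finset.mem_singleton_self b)
      · rw [← Finset.insert_erase haS, hb]
    refine (Finset.card_le_card hsub).trans (Finset.card_image_le.trans ?_)
    rw [Finset.card_erase_of_mem ha, hF]
  refine le_trans ?_ h3
  exact Finset.card_le_card_of_injOn m (fun i _ => hm i) hinj.injOn

theorem eq_of_two_pow_mul {h k : ℕ} {m c : ℤ} (hm : Odd m) (hc : c = 2 ^ h * m)
    (hk : c = 2 ^ k ∨ c = -2 ^ k) : h = k := by
  have h1 : 2 ^ h * m.natAbs = 2 ^ k := by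
    have := congrArg Int.natAbs hc
    rcases hk with e | e <;> subst e <;> simpa [Int.natAbs_mul, Int.natAbs_pow] using this.symm
  have hodd : Odd m.natAbs := Int.natAbs_odd.2 hm
  have h2 : m.natAbs = 1 := by
    exact Nat.eq_one_of_dvd_coprimes ((Nat.coprime_two_left.2 hodd).pow_left k)
      ⟨2 ^ h, by rw [← h1]; ring⟩ dvd_rfl
  rw [h2, mul_one] at h1
  exact Nat.pow_right_injective le_rfl h1

set_option maxHeartbeats 1000000 in
/-- The number of members and their heights. -/
theorem Images.invariants {a e : ℕ} {E : β → ℤ} {f : Fin (2 * 2 ^ a - 1) → β → ℤ}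
    {g : Fin e → β → ℤ} {κ : Fin (2 * 2 ^ a - 1) → ℤ} {ht : β → ℕ} {deg : β → ℤ}
    (I : Images a e E f g κ ht deg) :
    Fintype.card β = 4 + (2 * 2 ^ a - 1) + e ∧
      (Finset.univ.filter fun χ => ht χ = 0).card = 4 ∧
      (1 ≤ a → (Finset.univ.filter fun χ => ht χ = 1).card = 2 * 2 ^ a - 1) ∧
      ∀ χ, ht χ = 0 ∨ ht χ = 1 ∨ ht χ = a + 1 := by
  -- `E` is a sign on the four of height zero
  set F := Finset.univ.filter fun χ => ht χ = 0 with hFdef
  have hmemF : ∀ χ, χ ∈ F ↔ ht χ = 0 := fun χ => by simp [F]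
  have hsq : ∀ χ ∈ F, 1 ≤ E χ * E χ := fun χ hχ => by
    obtain ⟨k, hk⟩ := (I.odd χ).2 ((hmemF χ).1 hχ)
    have h0 : E χ ≠ 0 := fun e => by omega
    have := mul_self_pos.2 h0
    omega
  have hev : ∀ χ ∉ F, ∃ k, E χ = 2 * k := fun χ hχ => by
    obtain ⟨k, hk⟩ := Int.not_odd_iff_even.1 (fun h => hχ ((hmemF χ).2 ((I.odd χ).1 h)))
    exact ⟨k, by omega⟩
  have hmod : (4 : ℤ) ∣ (∑ χ ∈ F, E χ * E χ) := by
    have hsplit := Finset.sum_compl_add_sum F fun χ => E χ * E χ
    rw [I.ee] at hsplit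
    have h4 : (4 : ℤ) ∣ ∑ χ ∈ Fᶜ, E χ * E χ := Finset.dvd_sum fun χ hχ => by
      obtain ⟨k, hk⟩ := hev χ (Finset.mem_compl.1 hχ)
      exact ⟨k * k, by rw [hk]; ring⟩
    exact (dvd_add_right h4).1 (hsplit ▸ dvd_rfl)
  have hsumle : ∑ χ ∈ F, E χ * E χ ≤ 4 := I.ee ▸ Finset.sum_le_sum_of_subset_of_nonneg
    (Finset.subset_univ _) fun χ _ _ => mul_self_nonneg (E χ)
  have hFne : F.Nonempty := by
    obtain ⟨χ, hχ⟩ := I.exists_zero
    exact ⟨χ, (hmemF χ).2 hχ⟩
  have hpos : 0 < ∑ χ ∈ F, E χ * E χ :=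
    Finset.sum_pos (fun χ hχ => lt_of_lt_of_le one_pos (hsq χ hχ)) hFne
  have hsum4 : ∑ χ ∈ F, E χ * E χ = 4 := by omega
  have hEle : ∀ χ ∈ F, E χ * E χ ≤ 4 := fun χ hχ =>
    hsum4 ▸ Finset.single_le_sum (f := fun χ => E χ * E χ) (fun y _ => mul_self_nonneg (E y)) hχ
  have hone : ∀ χ ∈ F, E χ * E χ = 1 := fun χ hχ => by
    obtain ⟨k, hk⟩ := (I.odd χ).2 ((hmemF χ).1 hχ)
    have := hEle χ hχ
    have : E χ = 1 ∨ E χ = -1 := by
      have h1 : E χ ≤ 2 := by nlinarith
      have h2 : -2 ≤ E χ := by nlinarith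
      omega
    rcases this with h | h <;> simp [h]
  have hF4 : F.card = 4 := by
    have := hsum4
    rw [Finset.sum_congr rfl hone, Finset.sum_const, nsmul_eq_mul, mul_one] at this
    exact_mod_cast this
  have hEoff : ∀ χ ∉ F, E χ = 0 := by
    have h := Finset.sum_compl_add_sum F fun χ => E χ * E χ
    rw [I.ee, hsum4] at h
    have h0 := (Finset.sum_eq_zero_iff_of_nonneg fun χ _ => mul_self_nonneg (E χ)).1
      (show ∑ χ ∈ Fᶜ, E χ * E χ = 0 by omega)
    exact fun χ hχ => mul_self_eq_zero.1 (h0 χ (Finset.mem_compl.2 hχ))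
  have hEs : ∀ χ, E χ = 0 ∨ E χ = 1 ∨ E χ = -1 := fun χ => by
    by_cases hχ : χ ∈ F
    · exact Or.inr (mul_self_eq_one_iff.1 (hone χ hχ))
    · exact Or.inl (hEoff χ hχ)
  have hEiff : ∀ χ, E χ ≠ 0 ↔ χ ∈ F := fun χ =>
    ⟨fun h => Classical.byContradiction fun h' => h (hEoff χ h'), fun h e => by
      have := hone χ h; simp [e] at this⟩
  -- the shapes
  choose P w s hPc hP hw hs hf using fun x => exists_shape hEs ((I.ff x x).trans (if_pos rfl)) (I.ef x)
  choose R W t hRc hR hW ht' hg using fun i => exists_shape hEs ((I.gg i i).trans (if_pos rfl)) (I.eg i)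
  have hPF : ∀ x, P x ⊆ F := fun x χ h => (hEiff χ).1 (hP x χ h)
  have hRF : ∀ i, R i ⊆ F := fun i χ h => (hEiff χ).1 (hR i χ h)
  have hwF : ∀ x, w x ∉ F := fun x h => (hEiff _).2 h (hw x)
  have hWF : ∀ i, W i ∉ F := fun i h => (hEiff _).2 h (hW i)
  have hff : ∀ x y, x ≠ y → (P x = P y ∧ w x ≠ w y) ∨ ((P x ∩ P y).card = 1 ∧ w x = w y) := by
    intro x y hxy
    have h := shape_mul hEs (hP x) (hP y) (hw x) (hw y) (hf x) (hf y)
    rw [I.ff, if_neg hxy] at h
    have hle : (P x ∩ P y).card ≤ 2 := (Finset.card_le_card Finset.inter_subset_left).trans (hPc x).le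
    by_cases hww : w x = w y
    · rw [if_pos hww] at h
      refine Or.inr ⟨?_, hww⟩
      rcases hs x with e₁ | e₁ <;> rcases hs y with e₂ | e₂ <;> rw [e₁, e₂] at h <;> omega
    · rw [if_neg hww] at h
      refine Or.inl ⟨?_, hww⟩
      have h2 : (P x ∩ P y).card = 2 := by omega
      exact (Finset.eq_of_subset_of_card_le Finset.inter_subset_left (by rw [h2, hPc])).symm.trans
        (Finset.eq_of_subset_of_card_le Finset.inter_subset_right (by rw [h2, hPc]))
  -- products one
  have hkind : ∀ {u u' : β → ℤ} {A A' : Finset β} {v v' : β} {r r' : ℤ},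
      (∀ χ ∈ A, E χ ≠ 0) → (∀ χ ∈ A', E χ ≠ 0) → A.card = 2 → A'.card = 2 → E v = 0 → E v' = 0 →
      (r = 1 ∨ r = -1) → (r' = 1 ∨ r' = -1) →
      (∀ χ, u χ = (if χ ∈ A then E χ else 0) + if χ = v then r else 0) →
      (∀ χ, u' χ = (if χ ∈ A' then E χ else 0) + if χ = v' then r' else 0) →
      ∑ χ, u χ * u' χ = 1 → ∑ χ, deg χ * u χ = 0 → ∑ χ, deg χ * u' χ = 0 →
      ((A ∩ A').card = 1 ∧ v ≠ v') ∨ (Disjoint A A' ∧ v = v' ∧ r = r') := by
    intro u u' A A' v v' r r' hA hA' hAc hA'c hv hv' hr hr' hu hu' h1 hd hd'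
    rw [shape_mul hEs hA hA' hv hv' hu hu'] at h1
    by_cases hvv : v = v'
    · rw [if_pos hvv] at h1
      by_cases hrr : r = r'
      · refine Or.inr ⟨Finset.disjoint_iff_inter_eq_empty.2 (Finset.card_eq_zero.1 ?_), hvv, hrr⟩
        rcases hr with e₁ | e₁ <;> rw [← hrr, e₁] at h1 <;> omega
      · exfalso
        have hr2 : r' = -r := by omega
        rw [hr2] at h1
        have h2 : (A ∩ A').card = 2 := by
          rcases hr with e₁ | e₁ <;> rw [e₁] at h1 <;> omega
        have hAA : A = A' :=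
          (Finset.eq_of_subset_of_card_le Finset.inter_subset_left (by rw [h2, hAc])).symm.trans
            (Finset.eq_of_subset_of_card_le Finset.inter_subset_right (by rw [h2, hA'c]))
        have h3 : ∑ χ, deg χ * (u χ - u' χ) = 0 := by
          simp only [mul_sub, Finset.sum_sub_distrib, hd, hd', sub_zero]
        rw [Finset.sum_eq_single_of_mem v (Finset.mem_univ _) fun χ _ hχ => by
          rw [hu, hu', hAA, if_neg hχ, if_neg (show χ ≠ v' from fun e => hχ (e.trans hvv.symm)),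
            sub_self, mul_zero], hu, hu', hAA,
          if_pos rfl, if_pos hvv, hr2] at h3
        have := I.deg_pos v
        rcases mul_eq_zero.1 h3 with h | h
        · omega
        · rcases hr with e₁ | e₁ <;> rw [e₁] at h <;> omega
    · rw [if_neg hvv, add_zero] at h1
      exact Or.inl ⟨by exact_mod_cast h1, hvv⟩
  have hfg : ∀ x i, ((P x ∩ R i).card = 1 ∧ w x ≠ W i) ∨
      (Disjoint (P x) (R i) ∧ w x = W i ∧ s x = t i) := fun x i =>
    hkind (hP x) (hR i) (hPc x) (hRc i) (hw x) (hW i) (hs x) (ht' i) (hf x) (hg i) (I.fg x i)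
      (I.deg_f x) (I.deg_g i)
  have hgg : ∀ i j, i ≠ j → ((R i ∩ R j).card = 1 ∧ W i ≠ W j) ∨
      (Disjoint (R i) (R j) ∧ W i = W j ∧ t i = t j) := fun i j hij =>
    hkind (hR i) (hR j) (hRc i) (hRc j) (hW i) (hW j) (ht' i) (ht' j) (hg i) (hg j)
      ((I.gg i j).trans (if_neg hij)) (I.deg_g i) (I.deg_g j)
  -- values
  have hTF : ∀ χ, colT E f κ χ =
      -E χ - 2 * ∑ x, κ x * ((if χ ∈ P x then E χ else 0) + if χ = w x then s x else 0) :=
    fun χ => by simp only [colT, hf]
  have hQF : ∀ i χ, colQ E (g i) χ =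
      -E χ + 2 * ((if χ ∈ R i then E χ else 0) + if χ = W i then t i else 0) :=
    fun i χ => by simp only [colQ, hg]
  have hq : 0 < 2 ^ a := Nat.two_pow_pos a
  -- the members outside
  have hcover : ∀ χ ∉ F, (∃ x, χ = w x) ∨ ∃ i, χ = W i := by
    intro χ hχ
    by_contra hno
    push Not at hno
    obtain ⟨χ₀, h0⟩ := I.exists_zero
    obtain ⟨m, hm, he⟩ := I.exact χ₀ h0 χ
    have hT : colT E f κ χ = 0 := by
      rw [hTF, hEoff χ hχ]
      simp [fun x => hno.1 x]
    have hQ : ∀ i, colQ E (g i) χ = 0 := fun i => by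
      rw [hQF, hEoff χ hχ]
      simp [hno.2 i]
    rw [form, hT] at he
    simp only [hQ, mul_zero, Finset.sum_const_zero, add_zero] at he
    rcases mul_eq_zero.1 he.symm with h | h
    · exact pow_ne_zero _ two_ne_zero h
    · subst h; simp at hm
  -- all the pairs agree
  have hPeq : ∀ x y, P x = P y := by
    by_contra hne
    push Not at hne
    obtain ⟨x₀, y₀, hxy⟩ := hne
    have hall : ∀ z, w z = w x₀ := by
      intro z
      by_cases hzx : z = x₀
      · rw [hzx]
      have h0 : w x₀ = w y₀ :=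
        ((hff x₀ y₀ (fun e => hxy (e ▸ rfl))).resolve_left fun h => hxy h.1).2
      rcases hff z x₀ hzx with h | h
      · by_cases hzy : z = y₀
        · exact absurd (h.1.symm.trans (hzy ▸ rfl)) hxy
        · rcases hff z y₀ hzy with h' | h'
          · exact absurd (h.1.symm.trans h'.1) hxy
          · exact absurd (h'.2.trans h0.symm) h.2
      · exact h.2
    have hmeet : ∀ x y, x ≠ y → (P x ∩ P y).card = 1 := fun x y h =>
      ((hff x y h).resolve_left fun h' => h'.2 ((hall x).trans (hall y).symm)).1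
    have h3 := card_pairs_le hF4 P (fun x => ⟨hPF x, hPc x⟩) hmeet
    rw [Fintype.card_fin] at h3
    have hq2 : 2 ≤ 2 * 2 ^ a - 1 := by
      rcases Nat.lt_or_ge (2 * 2 ^ a - 1) 2 with h | h
      · exact absurd (congrArg P (Fin.ext (by omega) : x₀ = y₀)) hxy
      · exact h
    have hWz : ∀ i, W i = w x₀ := by
      intro i
      by_contra hne'
      have h4 := card_pairs_le hF4 (fun o : Option (Fin (2 * 2 ^ a - 1)) => o.elim (R i) P)
        (fun o => by
          rcases o with - | x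
          · exact ⟨hRF i, hRc i⟩
          · exact ⟨hPF x, hPc x⟩)
        (fun o o' h => by
          have hmix : ∀ x, (P x ∩ R i).card = 1 := fun x =>
            ((hfg x i).resolve_right fun h' => hne' (h'.2.1.symm.trans (hall x))).1
          rcases o with - | x <;> rcases o' with - | y
          · exact absurd rfl h
          · show (R i ∩ P y).card = 1
            rw [Finset.inter_comm]; exact hmix y
          · exact hmix x
          · exact hmeet x y fun e => h (e ▸ rfl))
      rw [Fintype.card_option, Fintype.card_fin] at h4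
      omega
    have hcard : Fintype.card β ≤ 5 := by
      have hsub : (Finset.univ : Finset β) ⊆ insert (w x₀) F := fun χ _ => by
        by_cases hχ : χ ∈ F
        · exact Finset.mem_insert_of_mem hχ
        · rcases hcover χ hχ with ⟨x, rfl⟩ | ⟨i, rfl⟩
          · exact Finset.mem_insert.2 (Or.inl (hall x))
          · exact Finset.mem_insert.2 (Or.inl (hWz i))
      have := (Finset.card_le_card hsub).trans (Finset.card_insert_le _ _)
      rw [Finset.card_univ, hF4] at this
      omega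
    have := I.card_ge
    omega
  have hwinj : Function.Injective w := by
    intro x y h
    by_contra hne
    rcases hff x y hne with h' | h'
    · exact h'.2 h
    · rw [hPeq x y, Finset.inter_self, hPc] at h'
      omega
  obtain ⟨x₁⟩ : Nonempty (Fin (2 * 2 ^ a - 1)) := ⟨⟨0, by omega⟩⟩
  have hT₀ : ∀ χ ∈ F, colT E f κ χ = if χ ∈ P x₁ then E χ else -E χ := by
    intro χ hχ
    rw [hTF, Finset.sum_congr rfl fun x _ => show
      κ x * ((if χ ∈ P x then E χ else 0) + if χ = w x then s x else 0) =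
        κ x * (if χ ∈ P x₁ then E χ else 0) by
      rw [hPeq x x₁, if_neg (show χ ≠ w x from fun e => hwF x (e ▸ hχ)), add_zero],
      ← Finset.sum_mul, I.κ_sum]
    split_ifs <;> ring
  have hQ₀ : ∀ i, ∀ χ ∈ F, colQ E (g i) χ = if χ ∈ R i then E χ else -E χ := by
    intro i χ hχ
    rw [hQF, if_neg (show χ ≠ W i from fun e => hWF i (e ▸ hχ)), add_zero]
    split_ifs <;> ring
  have hcompl : ∀ {A A' : Finset β}, A ⊆ F → A' ⊆ F → A.card = 2 → A'.card = 2 → Disjoint A A' →
      ∀ χ ∈ F, (χ ∈ A ↔ χ ∉ A') := by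
    intro A A' hA hA' hAc hA'c hd χ hχ
    refine ⟨fun h => Finset.disjoint_left.1 hd h, fun h => ?_⟩
    have : A ∪ A' = F := Finset.eq_of_subset_of_card_le (Finset.union_subset hA hA')
      (by rw [Finset.card_union_of_disjoint hd, hAc, hA'c, hF4])
    rw [← this] at hχ
    exact (Finset.mem_union.1 hχ).resolve_right h
  have hTw : ∀ χ ∉ F, (∀ x, χ ≠ w x) → colT E f κ χ = 0 := fun χ hχ h => by
    rw [hTF, hEoff χ hχ]; simp [h]
  have hQw : ∀ i, ∀ χ ∉ F, χ ≠ W i → colQ E (g i) χ = 0 := fun i χ hχ h => by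
    rw [hQF, hEoff χ hχ]; simp [h]
  have hQW : ∀ i, colQ E (g i) (W i) = 2 * t i := fun i => by
    rw [hQF, hW i, if_neg (show W i ∉ R i from fun h => hWF i (hRF i h))]; simp
  have hTw' : ∀ x, colT E f κ (w x) = -2 * (κ x * s x) := fun x => by
    rw [hTF, hw x, Finset.sum_eq_single_of_mem x (Finset.mem_univ _) fun y _ hy => by
      rw [if_neg (show w x ∉ P y from fun h => hwF x (hPF y h)),
        if_neg (show w x ≠ w y from fun h => hy (hwinj h).symm)]
      ring, if_neg (show w x ∉ P x from fun h => hwF x (hPF x h)), if_pos rfl]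
    ring
  -- the members outside are distinct
  have hnoshare : ∀ i j, i ≠ j → W i ≠ W j := by
    intro i j hij hWij
    obtain ⟨hd, -, htt⟩ := (hgg i j hij).resolve_left fun h => h.2 hWij
    have hx : ∀ x, W i ≠ w x := by
      intro x hx
      obtain ⟨h1, -, -⟩ := (hfg x i).resolve_left fun h => h.2 hx.symm
      obtain ⟨h2, -, -⟩ := (hfg x j).resolve_left fun h => h.2 (hx.symm.trans hWij)
      obtain ⟨χ, hχ⟩ := Finset.card_pos.1 (show 0 < (P x).card by rw [hPc]; omega)
      exact Finset.disjoint_left.1 h1 hχ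
        ((hcompl (hRF i) (hRF j) (hRc i) (hRc j) hd χ (hPF x hχ)).2
          (Finset.disjoint_left.1 h2 hχ))
    obtain ⟨χ₀, h0⟩ := I.exists_zero
    have hχ₀ := (hmemF χ₀).2 h0
    obtain ⟨m, hm, he⟩ := I.exact χ₀ h0 (W i)
    have huniv : (Finset.univ : Finset (Fin e)) = {i, j} :=
      (Finset.eq_of_subset_of_card_le (Finset.subset_univ _) (by
        rw [Finset.card_univ, Fintype.card_fin, Finset.card_pair hij]; exact I.e_le)).symm
    have hzero : form (2 ^ a) E f g κ χ₀ (W i) = 0 := by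
      rw [form, hTw _ (hWF i) hx, mul_zero, add_zero, huniv, Finset.sum_pair hij, hQW i,
        hWij, hQW j, hQ₀ i χ₀ hχ₀, hQ₀ j χ₀ hχ₀, htt]
      have := hcompl (hRF i) (hRF j) (hRc i) (hRc j) hd χ₀ hχ₀
      by_cases hA : χ₀ ∈ R i
      · rw [if_pos hA, if_neg (this.1 hA)]; ring
      · rw [if_neg hA, if_pos (Classical.byContradiction fun h => hA (this.2 h))]; ring
    rw [hzero] at he
    rcases mul_eq_zero.1 he.symm with h | h
    · exact pow_ne_zero _ two_ne_zero h
    · subst h; simp at hm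
  have hwW : ∀ x i, w x ≠ W i := by
    intro x i hxi
    obtain ⟨hd, -, hst⟩ := (hfg x i).resolve_left fun h => h.2 hxi
    have hone' : ∀ y, y = x := by
      intro y
      rcases hfg y i with h | h
      · rw [hPeq y x, Finset.disjoint_iff_inter_eq_empty.1 hd, Finset.card_empty] at h
        omega
      · exact hwinj (h.2.1.trans hxi.symm)
    have hκ : κ x = -1 := by
      have := I.κ_sum
      rwa [Finset.sum_eq_single_of_mem x (Finset.mem_univ _)
        fun y _ h => absurd (hone' y) h] at this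
    have ha : 2 ^ a = 1 := by
      have h : Fintype.card (Fin (2 * 2 ^ a - 1)) ≤ 1 :=
        Fintype.card_le_one_iff.2 fun y z => (hone' y).trans (hone' z).symm
      rw [Fintype.card_fin] at h
      omega
    obtain ⟨χ₀, h0⟩ := I.exists_zero
    have hχ₀ := (hmemF χ₀).2 h0
    obtain ⟨m, hm, he⟩ := I.exact χ₀ h0 (w x)
    have hzero : form (2 ^ a) E f g κ χ₀ (w x) = 0 := by
      rw [form, show ((2 ^ a : ℕ) : ℤ) = 1 by exact_mod_cast ha, one_mul,
        Finset.sum_eq_single_of_mem i (Finset.mem_univ _) fun j _ hj => by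
        rw [hQw j _ (hwF x) (fun h => hnoshare j i hj (h.symm.trans hxi)), mul_zero],
        hTw', hκ, hT₀ χ₀ hχ₀, hQ₀ i χ₀ hχ₀, hPeq x₁ x, hxi, hQW, hst]
      have := hcompl (hPF x) (hRF i) (hPc x) (hRc i) hd χ₀ hχ₀
      by_cases hA : χ₀ ∈ P x
      · rw [if_pos hA, if_neg (this.1 hA)]; ring
      · rw [if_neg hA, if_pos (Classical.byContradiction fun h => hA (this.2 h))]; ring
    rw [hzero] at he
    rcases mul_eq_zero.1 he.symm with h | h
    · exact pow_ne_zero _ two_ne_zero h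
    · subst h; simp at hm
  have hWinj : Function.Injective W := fun i j h =>
    Classical.byContradiction fun hne => hnoshare i j hne h
  -- the heights
  obtain ⟨χ₀, h0⟩ := I.exists_zero
  have hχ₀ := (hmemF χ₀).2 h0
  have hE0 : E χ₀ = 1 ∨ E χ₀ = -1 := mul_self_eq_one_iff.1 (hone χ₀ hχ₀)
  have hhw : ∀ x, ht (w x) = 1 := by
    intro x
    obtain ⟨m, hm, he⟩ := I.exact χ₀ h0 (w x)
    refine eq_of_two_pow_mul hm he ?_
    rw [form, Finset.sum_eq_zero fun i _ => by rw [hQw i _ (hwF x) (hwW x i), mul_zero],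
      hTw', hT₀ χ₀ hχ₀]
    rcases hE0 with e₁ | e₁ <;> rcases I.κ_sign x with e₂ | e₂ <;> rcases hs x with e₃ | e₃ <;>
      split_ifs <;> simp [e₁, e₂, e₃]
  have hhW : ∀ i, ht (W i) = a + 1 := by
    intro i
    obtain ⟨m, hm, he⟩ := I.exact χ₀ h0 (W i)
    refine eq_of_two_pow_mul hm he ?_
    rw [form, hTw _ (hWF i) (fun x h => hwW x i h.symm), mul_zero, add_zero,
      Finset.sum_eq_single_of_mem i (Finset.mem_univ _) fun j _ hj => by
        rw [hQw j _ (hWF i) (fun h => hj (hWinj h).symm), mul_zero], hQW, hQ₀ i χ₀ hχ₀]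
    push_cast
    rcases hE0 with e₁ | e₁ <;> rcases ht' i with e₃ | e₃ <;>
      split_ifs <;> simp [e₁, e₃, pow_succ]
  -- the count
  let J : Fin (2 * 2 ^ a - 1) ⊕ Fin e → β := Sum.elim w W
  have hJ : Function.Injective J := hwinj.sumElim hWinj hwW
  have himg : Finset.univ.image J = Fᶜ := by
    ext χ
    simp only [Finset.mem_image, Finset.mem_univ, true_and, Finset.mem_compl]
    refine ⟨?_, fun h => ?_⟩
    · rintro ⟨x | i, rfl⟩
      · exact hwF x
      · exact hWF i
    · rcases hcover χ h with ⟨x, rfl⟩ | ⟨i, rfl⟩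
      · exact ⟨Sum.inl x, rfl⟩
      · exact ⟨Sum.inr i, rfl⟩
  refine ⟨?_, hF4, fun ha => ?_, fun χ => ?_⟩
  · have h := congrArg Finset.card himg
    rw [Finset.card_image_of_injective _ hJ, Finset.card_univ, Fintype.card_sum, Fintype.card_fin,
      Fintype.card_fin, Finset.card_compl, hF4] at h
    omega
  · have h1 : (Finset.univ.filter fun χ => ht χ = 1) = Finset.univ.image w := by
      ext χ
      simp only [Finset.mem_filter, Finset.mem_univ, true_and, Finset.mem_image]
      refine ⟨fun h => ?_, fun ⟨x, hx⟩ => hx ▸ hhw x⟩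
      rcases hcover χ (fun h' => by have := (hmemF χ).1 h'; omega) with ⟨x, rfl⟩ | ⟨i, rfl⟩
      · exact ⟨x, rfl⟩
      · have := hhW i; omega
    rw [h1, Finset.card_image_of_injective _ hwinj, Finset.card_univ, Fintype.card_fin]
  · by_cases hχ : χ ∈ F
    · exact Or.inl ((hmemF χ).1 hχ)
    · rcases hcover χ hχ with ⟨x, rfl⟩ | ⟨i, rfl⟩
      · exact Or.inr (Or.inl (hhw x))
      · exact Or.inr (Or.inr (hhW i))

end Cfsg.Agent.H40.Tame.Comb
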