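import Cfsg.Prelude.Def_Blocks
import Cfsg.Agent.H32.Contributions

/-!
# Signed frames of blocks with dihedral or Klein four defect groups

The block below a tame block: four members of height zero, `m` further ones, signs, the relations
`E = A + B + C + D` and `W x = A + B + X x`, and the orthogonal columns `T` and `Q` of the
projection on the regular elements.
-/

set_option autoImplicit false

namespace Cfsg.Agent.H40.Tame

open Cfsg

variable {G : Type*} [Group G] [Fintype G]

/-- The index set: four members of height zero and `m` others. -/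
abbrev Ix (m : ℕ) : Type := Fin 4 ⊕ Fin m

/-- The relation `A + B + C + D`. -/
def vecE (m : ℕ) : Ix m → ℤ := Sum.elim (fun _ => 1) (fun _ => 0)

/-- The relation `A + B + X x`. -/
def vecW {m : ℕ} (x : Fin m) : Ix m → ℤ :=
  Sum.elim ![1, 1, 0, 0] (fun y => if y = x then 1 else 0)

/-- The column `T`. -/
def vecT (m : ℕ) : Ix m → ℤ := Sum.elim ![1, 1, -1, -1] (fun _ => -2)

/-- The column `Q` attached to a pattern on the first four. -/
def vecQ (m : ℕ) (q : Fin 4 → ℤ) : Ix m → ℤ := Sum.elim q (fun _ => 0)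

/-- The signed combination of the members. -/
noncomputable def comb {m : ℕ} (ch : Ix m → IrrCharacter G) (ε : Ix m → ℤ) (v : Ix m → ℤ) :
    G → ℂ :=
  fun g => ∑ i, ((v i * ε i : ℤ) : ℂ) * (ch i : G → ℂ) g

/-- A signed frame: the relations vanish outside `S` and on the regular elements. -/
structure IsFrame (B : Set (IrrCharacter G)) (S : G → Prop) {m : ℕ}
    (ch : Ix m → IrrCharacter G) (ε : Ix m → ℤ) : Prop where
  inj : Function.Injective ch
  range : Set.range ch = B
  sign : ∀ i, ε i = 1 ∨ ε i = -1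
  height : ∀ i, blockHeight 2 B (ch i : G → ℂ) = 0 ↔ ∃ j, i = Sum.inl j
  regE : ∀ g : G, ¬ 2 ∣ orderOf g → comb ch ε (vecE m) g = 0
  regW : ∀ x, ∀ g : G, ¬ 2 ∣ orderOf g → comb ch ε (vecW x) g = 0
  suppE : ∀ g : G, ¬ S g → comb ch ε (vecE m) g = 0
  suppW : ∀ x, ∀ g : G, ¬ S g → comb ch ε (vecW x) g = 0

/-- The possible sets of patterns with their weights, for `m + 1 = hq`. -/
def IsPatterns (hq : ℕ) {e : ℕ} (q : Fin e → Fin 4 → ℤ) (w : ℤ) : Prop :=
  (w = hq ∧ (e = 0 ∨ (e = 1 ∧ ∀ i, q i = ![1, -1, 1, -1]) ∨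
      (e = 2 ∧ ∀ i : Fin e, q i = if (i : ℕ) = 0 then ![1, -1, 1, -1] else ![1, -1, -1, 1]))) ∨
    (w = 2 * hq ∧ e = 1 ∧ ((∀ i, q i = ![1, -1, 0, 0]) ∨ ∀ i, q i = ![0, 0, 1, -1]))

/-- The projection on the regular elements in the columns `Q` and `T`. -/
structure HasRows (B : Set (IrrCharacter G)) {m : ℕ} (ch : Ix m → IrrCharacter G) (ε : Ix m → ℤ)
    {e : ℕ} (q : Fin e → Fin 4 → ℤ) (w : ℤ) : Prop where
  rank : blockRank 2 B = e + 1
  patterns : IsPatterns (m + 1) q w
  formula : ∀ i j, ε i * ε j * H32.scaledReg 2 B (ch i) (ch j) =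
    w * ∑ t, vecQ m (q t) i * vecQ m (q t) j + vecT m i * vecT m j

end Cfsg.Agent.H40.Tame
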