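import Cfsg.Agent.H86.PPrime.Basic
import Cfsg.Agent.H22.TICore
import Cfsg.Prelude.Def_CaseTheorems
import Mathlib.GroupTheory.SpecificGroups.Quaternion

/-!
# Semidihedral and generalized quaternion groups

A group of order `8 * q`, `q` a power of two, with a cyclic subgroup generated by `σ` of order
`4 * q`, whose other elements conjugate `σ` to `σ ^ c` and square into `⟨σ ^ (2 * q)⟩`.
-/

set_option autoImplicit false
set_option linter.unusedSectionVars false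

namespace Cfsg.Agent.H40.Tame

open Cfsg

variable {G : Type*} [Group G] [Finite G]

/-- The common shape of semidihedral and generalized quaternion groups. -/
structure TData (D : Subgroup G) (σ : G) (c : ℤ) (q : ℕ) : Prop where
  pow : ∃ a : ℕ, q = 2 ^ a
  σ_mem : σ ∈ D
  order : orderOf σ = 4 * q
  card : Nat.card D = 8 * q
  conj : ∀ w ∈ D, w ∉ Subgroup.zpowers σ → w * σ * w⁻¹ = σ ^ c
  sq : ∀ w ∈ D, w ∉ Subgroup.zpowers σ → w * w = 1 ∨ w * w = σ ^ (2 * q)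
  cform : c = -1 ∨ (c = 2 * (q : ℤ) - 1 ∧ 2 ≤ q)

/-- The quaternion case: the outer elements square to the central involution. -/
def TData.IsQ {D : Subgroup G} {σ : G} {c : ℤ} {q : ℕ} (_ : TData D σ c q) : Prop :=
  ∀ w ∈ D, w ∉ Subgroup.zpowers σ → w * w = σ ^ (2 * q)

/-- The semidihedral case: there is an outer involution. -/
def TData.IsSD {D : Subgroup G} {σ : G} {c : ℤ} {q : ℕ} (_ : TData D σ c q) : Prop :=
  c = 2 * (q : ℤ) - 1 ∧ 2 ≤ q ∧ ∃ τ ∈ D, τ ∉ Subgroup.zpowers σ ∧ τ * τ = 1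

namespace TData

variable {D : Subgroup G} {σ : G} {c : ℤ} {q : ℕ} (hd : TData D σ c q)

include hd

theorem q_pos : 0 < q := by
  obtain ⟨a, rfl⟩ := hd.pow
  exact Nat.two_pow_pos a

theorem zpowers_le : Subgroup.zpowers σ ≤ D := Subgroup.zpowers_le.2 hd.σ_mem

theorem pGroup : IsPGroup 2 D := by
  obtain ⟨a, ha⟩ := hd.pow
  exact IsPGroup.of_card (n := a + 3) (by rw [hd.card, ha]; ring)

theorem orderOf_z : orderOf (σ ^ (2 * q)) = 2 := by
  have := hd.q_pos
  rw [orderOf_pow' σ (by omega), hd.order, Nat.gcd_eq_right ⟨2, by ring⟩]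
  rw [show 4 * q = 2 * (2 * q) by ring]
  exact Nat.mul_div_left 2 (by omega)

theorem orderOf_u : orderOf (σ ^ q) = 4 := by
  have := hd.q_pos
  rw [orderOf_pow' σ (by omega), hd.order, Nat.gcd_eq_right ⟨4, by ring⟩]
  exact Nat.mul_div_left 4 (by omega)

theorem u_sq : σ ^ q * σ ^ q = σ ^ (2 * q) := by rw [← pow_add, two_mul]

theorem relIndex_two : (Subgroup.zpowers σ).relIndex D = 2 := by
  have h := Subgroup.card_mul_index ((Subgroup.zpowers σ).subgroupOf D)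
  rw [Nat.card_congr (Subgroup.subgroupOfEquivOfLe hd.zpowers_le).toEquiv, Nat.card_zpowers,
    hd.order, hd.card] at h
  refine Nat.eq_of_mul_eq_mul_left (Nat.mul_pos four_pos hd.q_pos) (h.trans ?_)
  ring

theorem mul_mem_iff {a b : G} (ha : a ∈ D) (hb : b ∈ D) :
    a * b ∈ Subgroup.zpowers σ ↔ (a ∈ Subgroup.zpowers σ ↔ b ∈ Subgroup.zpowers σ) :=
  Subgroup.mul_mem_iff_of_index_two (H := (Subgroup.zpowers σ).subgroupOf D) hd.relIndex_two
    (a := ⟨a, ha⟩) (b := ⟨b, hb⟩)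

theorem exists_outside : ∃ v ∈ D, v ∉ Subgroup.zpowers σ := by
  by_contra h
  push Not at h
  have := hd.relIndex_two
  rw [Subgroup.relIndex_eq_one.2 h] at this
  omega

theorem pow_conj {w : G} (hw : w ∈ D) (hA : w ∉ Subgroup.zpowers σ) (i : ℤ) :
    w * σ ^ i * w⁻¹ = σ ^ (c * i) := by
  rw [← conj_zpow, hd.conj w hw hA, ← zpow_mul]

/-- The exponent sends `q` to `-q`. -/
theorem dvd_c_mul_q : ((4 * q : ℕ) : ℤ) ∣ c * q + q := by
  rcases hd.cform with rfl | ⟨rfl, hq⟩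
  · simp
  · obtain ⟨a, rfl⟩ := hd.pow
    obtain ⟨b, rfl⟩ : ∃ b, a = b + 1 := ⟨a - 1, by
      rcases a with - | a
      · simp at hq
      · omega⟩
    refine ⟨2 ^ b, ?_⟩
    push_cast
    ring

theorem conj_u {w : G} (hw : w ∈ D) (hA : w ∉ Subgroup.zpowers σ) :
    w * σ ^ q * w⁻¹ = (σ ^ q)⁻¹ := by
  rw [← zpow_natCast, hd.pow_conj hw hA, ← zpow_neg, zpow_eq_zpow_iff_modEq, hd.order]
  refine Int.modEq_iff_dvd.2 ?_
  have := dvd_neg.2 hd.dvd_c_mul_q
  rwa [show -(q : ℤ) - c * q = -(c * q + q) by ring]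

theorem z_comm {w : G} (hw : w ∈ D) : w * σ ^ (2 * q) = σ ^ (2 * q) * w := by
  by_cases hA : w ∈ Subgroup.zpowers σ
  · obtain ⟨i, rfl⟩ := hA
    exact (((Commute.refl σ).zpow_left i).pow_right _).eq
  · have h3 : w * σ ^ (2 * q) * w⁻¹ = σ ^ (2 * q) := by
      rw [← hd.u_sq, ← conj_mul, hd.conj_u hw hA, ← mul_inv_rev, inv_eq_iff_mul_eq_one, hd.u_sq,
        ← pow_two]
      have h2 := pow_orderOf_eq_one (σ ^ (2 * q))
      rwa [hd.orderOf_z] at h2
    rwa [mul_inv_eq_iff_eq_mul] at h3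

theorem mem_of_comm_u {w : G} (hw : w ∈ D) (h : w * σ ^ q = σ ^ q * w) :
    w ∈ Subgroup.zpowers σ := by
  by_contra hA
  have h1 := hd.conj_u hw hA
  rw [h, mul_inv_cancel_right, eq_inv_iff_mul_eq_one, hd.u_sq] at h1
  have h2 := hd.orderOf_z
  rw [h1, orderOf_one] at h2
  omega

/-- An element of odd order centralising `u` and normalising a subgroup centralises it. -/
theorem centralizes {R : Subgroup G} (hR : R ≤ D) {x : G} (hx : ¬ 2 ∣ orderOf x)
    (hu : x * σ ^ q = σ ^ q * x) (hn : x ∈ Subgroup.normalizer (R : Set G)) :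
    ∀ r ∈ R, x * r = r * x := by
  have : Fact (Nat.Prime 2) := ⟨Nat.prime_two⟩
  set Q := Subgroup.zpowers (σ ^ q) with hQ
  set U := (R ⊔ Q) ⊓ Subgroup.zpowers σ with hU
  have hRQ : R ⊔ Q ≤ D :=
    sup_le hR (Subgroup.zpowers_le.2 (Subgroup.pow_mem _ hd.σ_mem _))
  have hconj : ∀ w ∈ R ⊔ Q, x * w * x⁻¹ ∈ R ⊔ Q := by
    have hle : R ⊔ Q ≤ (R ⊔ Q).comap (MulAut.conj x).toMonoidHom := by
      refine sup_le (fun w hw => ?_) (Subgroup.zpowers_le.2 ?_)
      · exact Subgroup.mem_comap.2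
          (Subgroup.mem_sup_left ((Subgroup.mem_normalizer_iff.1 hn w).1 hw))
      · refine Subgroup.mem_comap.2 (Subgroup.mem_sup_right ?_)
        show x * σ ^ q * x⁻¹ ∈ Q
        rw [hu, mul_inv_cancel_right]
        exact Subgroup.mem_zpowers _
    exact fun w hw => hle hw
  have hcx : ∀ w : G, w * σ ^ q = σ ^ q * w → x * w * x⁻¹ * σ ^ q = σ ^ q * (x * w * x⁻¹) :=
    fun w hw => (((show Commute x (σ ^ q) from hu).mul_left (show Commute w (σ ^ q) from hw)).mul_left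
      (show Commute x (σ ^ q) from hu).inv_left).eq
  have hAcomm : ∀ w ∈ Subgroup.zpowers σ, w * σ ^ q = σ ^ q * w := by
    rintro w ⟨i, rfl⟩
    exact (((Commute.refl σ).zpow_left i).pow_right q).eq
  have hUinv : ∀ w ∈ U, x * w * x⁻¹ ∈ U := fun w hw =>
    ⟨hconj w hw.1, hd.mem_of_comm_u (hRQ (hconj w hw.1)) (hcx w (hAcomm w hw.2))⟩
  have hxU : x ∈ Subgroup.normalizer (U : Set G) := by
    refine H22.mem_normalizer_of_cS (Subgroup.eq_of_le_of_card_ge ?_ (H22.card_cS _ _).ge)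
    rintro w ⟨v, hv, rfl⟩
    exact hUinv v hv
  have hU2 : IsPGroup 2 U := hd.pGroup.to_le (inf_le_left.trans hRQ)
  have : IsCyclic U := Subgroup.isCyclic_of_le (inf_le_right : U ≤ Subgroup.zpowers σ)
  have hfix : ∀ w ∈ U, x * w = w * x := H86.PPrime.cyclic_fix hU2 hx hxU (w := σ ^ q)
    ⟨Subgroup.mem_sup_right (Subgroup.mem_zpowers _), Subgroup.pow_mem _ (Subgroup.mem_zpowers σ) _⟩
    (fun e => by have := hd.orderOf_u; rw [e, orderOf_one] at this; omega) hu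
  intro r hr
  have hr' : r ∈ R ⊔ Q := Subgroup.mem_sup_left hr
  by_cases hA : r ∈ Subgroup.zpowers σ
  · exact hfix r ⟨hr', hA⟩
  set r' := x * r * x⁻¹ with hr'def
  have hout : r' ∉ Subgroup.zpowers σ := fun h' => hA <| hd.mem_of_comm_u (hR hr) (by
    have h1 := hAcomm r' h'
    have h2 : x⁻¹ * r' * x⁻¹⁻¹ * σ ^ q = σ ^ q * (x⁻¹ * r' * x⁻¹⁻¹) :=
      (((show Commute x (σ ^ q) from hu).inv_left.mul_left
        (show Commute r' (σ ^ q) from h1)).mul_left
        (show Commute x (σ ^ q) from hu).inv_left.inv_left).eq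
    rwa [hr'def, show x⁻¹ * (x * r * x⁻¹) * x⁻¹⁻¹ = r by group] at h2)
  have ha : r⁻¹ * r' ∈ U := by
    refine ⟨(R ⊔ Q).mul_mem ((R ⊔ Q).inv_mem hr') (hconj r hr'), ?_⟩
    refine (hd.mul_mem_iff (D.inv_mem (hR hr)) (hRQ (hconj r hr'))).2 (iff_of_false ?_ hout)
    exact fun h => hA ((Subgroup.inv_mem_iff _).1 h)
  set a := r⁻¹ * r' with ha'
  have hxa := hfix a ha
  have hiter : ∀ k : ℕ, x ^ k * r * (x ^ k)⁻¹ = r * a ^ k := by
    intro k
    induction k with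
    | zero => simp
    | succ k ih =>
      have hk : Commute x (a ^ k) := (show Commute x a from hxa).pow_right k
      calc x ^ (k + 1) * r * (x ^ (k + 1))⁻¹ = x * (x ^ k * r * (x ^ k)⁻¹) * x⁻¹ := by
            rw [pow_succ']; group
        _ = x * r * (a ^ k * x⁻¹) := by rw [ih]; group
        _ = r' * a ^ k := by rw [← (hk.inv_left).eq, hr'def]; group
        _ = _ := by
          rw [pow_succ' a, ← mul_assoc r]
          congr 1
          rw [ha', mul_inv_cancel_left]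
  have hax : a ^ orderOf x = 1 := by
    have := hiter (orderOf x)
    rw [pow_orderOf_eq_one, _root_.inv_one, one_mul, mul_one] at this
    exact (mul_left_cancel (a := r) (by rwa [mul_one])).symm
  obtain ⟨k, hk⟩ := IsPGroup.iff_orderOf.1 hU2 ⟨a, ha⟩
  rw [Subgroup.orderOf_mk] at hk
  have h1 : orderOf a = 1 := Nat.eq_one_of_dvd_coprimes
    ((Nat.Coprime.pow_left k ((Nat.prime_two.coprime_iff_not_dvd).2 hx)))
    (dvd_of_eq hk) (orderOf_dvd_iff_pow_eq_one.2 hax)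
  rw [orderOf_eq_one_iff, ha', inv_mul_eq_one] at h1
  rw [← mul_inv_eq_iff_eq_mul]
  exact h1.symm

/-- An element of odd order fixing or inverting `u` fixes it. -/
theorem comm_u_of_normalizes {x : G} (hx : ¬ 2 ∣ orderOf x)
    (hn : x ∈ Subgroup.normalizer (Subgroup.zpowers (σ ^ q) : Set G)) :
    x * σ ^ q = σ ^ q * x := by
  have : Fact (Nat.Prime 2) := ⟨Nat.prime_two⟩
  have : IsCyclic (Subgroup.zpowers (σ ^ q)) := inferInstance
  have hU : IsPGroup 2 (Subgroup.zpowers (σ ^ q)) :=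
    IsPGroup.of_card (n := 2) (by rw [Nat.card_zpowers, hd.orderOf_u]; norm_num)
  have hmem : σ ^ (2 * q) ∈ Subgroup.zpowers (σ ^ q) := by
    rw [← hd.u_sq]
    exact Subgroup.mul_mem _ (Subgroup.mem_zpowers _) (Subgroup.mem_zpowers _)
  have : Fintype G := Fintype.ofFinite G
  have hz : x * σ ^ (2 * q) * x⁻¹ = σ ^ (2 * q) :=
    H22.TICore.eq_of_mem_zpowers (g := σ ^ q) hd.orderOf_z
      (by rw [← MulAut.conj_apply, MulEquiv.orderOf_eq]; exact hd.orderOf_z) hmem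
      ((Subgroup.mem_normalizer_iff.1 hn _).1 hmem)
  exact H86.PPrime.cyclic_fix hU hx hn hmem
    (fun e => by have := hd.orderOf_z; rw [e, orderOf_one] at this; omega)
    (mul_inv_eq_iff_eq_mul.1 hz) _ (Subgroup.mem_zpowers _)

/-- The outer involutions are conjugate. -/
theorem exists_conj_involution (hsd : hd.IsSD) {τ w : G} (hτ : τ ∈ D)
    (hτA : τ ∉ Subgroup.zpowers σ) (hτ2 : τ * τ = 1) (hw : w ∈ D)
    (hwA : w ∉ Subgroup.zpowers σ) (hw2 : w * w = 1) : ∃ d ∈ D, d * τ * d⁻¹ = w := by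
  obtain ⟨hc, hq, -⟩ := hsd
  have hτi : τ⁻¹ = τ := inv_eq_of_mul_eq_one_right hτ2
  obtain ⟨j, hj⟩ : τ * w ∈ Subgroup.zpowers σ := (hd.mul_mem_iff hτ hw).2 (by simp [hτA, hwA])
  have hwe : w = τ * σ ^ j := by
    rw [show σ ^ j = τ * w from hj, ← mul_assoc, hτ2, one_mul]
  have hflip : ∀ i : ℤ, σ ^ i * τ = τ * σ ^ (c * i) := fun i => by
    have := hd.pow_conj hτ hτA i
    rw [hτi] at this
    rw [← this, ← mul_assoc, ← mul_assoc, hτ2, one_mul]
  -- the exponent is even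
  have h0 : σ ^ (c * j + j) = 1 := by
    rw [← hw2, hwe, zpow_add, mul_assoc τ, ← mul_assoc (σ ^ j) τ, hflip, ← mul_assoc τ, ← mul_assoc τ,
      hτ2, one_mul]
  rw [← orderOf_dvd_iff_zpow_eq_one, hd.order, hc] at h0
  obtain ⟨t, ht⟩ := h0
  push_cast at ht
  have hj2 : j = 2 * t := by
    have : (2 * (q : ℤ)) * j = (2 * q) * (2 * t) := by linear_combination ht
    exact mul_left_cancel₀ (by positivity) this
  obtain ⟨a, ha⟩ := hd.pow
  obtain ⟨b, hb⟩ : ∃ b : ℕ, q = 2 * b := ⟨2 ^ (a - 1), by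
    rcases a with - | a
    · subst ha; simp at hq
    · rw [ha, pow_succ']; simp⟩
  set i : ℤ := -t * ((q : ℤ) + 1) with hi
  refine ⟨σ ^ i, Subgroup.zpow_mem _ hd.σ_mem _, ?_⟩
  rw [hflip, mul_assoc, ← zpow_neg, ← zpow_add, hwe]
  congr 1
  rw [zpow_eq_zpow_iff_modEq, hd.order]
  refine Int.modEq_iff_dvd.2 ⟨(b : ℤ) * t, ?_⟩
  rw [hc, hi, hj2, hb]
  push_cast
  ring

end TData

/-- Generalized quaternion groups. -/
theorem exists_tdata_quaternion {D : Subgroup G} {n : ℕ} (hn : 3 ≤ n)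
    (hq : Nonempty (D ≃* QuaternionGroup (2 ^ (n - 2)))) :
    ∃ σ : G, ∃ hd : TData D σ (-1) (2 ^ (n - 3)), hd.IsQ := by
  obtain ⟨e⟩ := hq
  set N := 2 ^ (n - 2) with hN
  have hNq : N = 2 * 2 ^ (n - 3) := by
    rw [hN, show n - 2 = (n - 3) + 1 by omega, pow_succ']
  have hNz : NeZero N := ⟨pow_ne_zero _ two_ne_zero⟩
  have hNN : NeZero (2 * N) := ⟨mul_ne_zero two_ne_zero (pow_ne_zero _ two_ne_zero)⟩
  let σ : G := ((e.symm (QuaternionGroup.a 1) : D) : G)
  have hmem : ∀ i : ZMod (2 * N), ((e.symm (QuaternionGroup.a i) : D) : G) ∈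
      Subgroup.zpowers σ := fun i => by
    refine ⟨(i.val : ℤ), ?_⟩
    show σ ^ ((i.val : ℕ) : ℤ) = _
    rw [zpow_natCast, ← SubmonoidClass.coe_pow, ← map_pow, QuaternionGroup.a_one_pow,
      ZMod.natCast_zmod_val]
  have hz : ((e.symm (QuaternionGroup.a (N : ZMod (2 * N))) : D) : G) = σ ^ N := by
    rw [← SubmonoidClass.coe_pow, ← map_pow, QuaternionGroup.a_one_pow]
  have hout : ∀ u, ∀ hu : u ∈ D, u ∉ Subgroup.zpowers σ →
      ∃ i, e ⟨u, hu⟩ = QuaternionGroup.xa i := fun u hu ho => by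
    rcases hi : e ⟨u, hu⟩ with i | i
    · refine absurd ?_ ho
      have := hmem i
      rwa [← hi, e.symm_apply_apply] at this
    · exact ⟨i, rfl⟩
  have hsq : ∀ u ∈ D, u ∉ Subgroup.zpowers σ → u * u = σ ^ N := fun u hu ho => by
    obtain ⟨i, hi⟩ := hout u hu ho
    have h : (⟨u, hu⟩ : D) * ⟨u, hu⟩ = e.symm (QuaternionGroup.a (N : ZMod (2 * N))) :=
      e.injective (by
        rw [map_mul, hi, e.apply_symm_apply, QuaternionGroup.xa_mul_xa, add_sub_cancel_right])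
    have := congrArg Subtype.val h
    rw [hz] at this
    exact this
  refine ⟨σ, ⟨⟨_, rfl⟩, SetLike.coe_mem _, ?_, ?_, fun u hu ho => ?_,
    fun u hu ho => Or.inr (hNq ▸ hsq u hu ho), Or.inl rfl⟩,
    fun u hu ho => hNq ▸ hsq u hu ho⟩
  · show orderOf σ = _
    rw [Subgroup.orderOf_coe, MulEquiv.orderOf_eq, QuaternionGroup.orderOf_a_one, hNq]
    ring
  · rw [Nat.card_congr e.toEquiv, Nat.card_eq_fintype_card, QuaternionGroup.card, hNq]
    ring
  · obtain ⟨i, hi⟩ := hout u hu ho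
    have h : (⟨u, hu⟩ : D) * e.symm (QuaternionGroup.a 1) =
        (e.symm (QuaternionGroup.a 1))⁻¹ * ⟨u, hu⟩ := by
      rw [eq_inv_mul_iff_mul_eq]
      refine e.injective ?_
      rw [map_mul, map_mul, hi, e.apply_symm_apply, QuaternionGroup.xa_mul_a,
        QuaternionGroup.a_mul_xa]
      congr 1
      ring
    have := congrArg Subtype.val h
    rw [zpow_neg_one]
    push_cast at this
    rw [this, mul_inv_cancel_right]

/-- Semidihedral groups. -/
theorem exists_tdata_semidihedral {D : Subgroup G} {n : ℕ} (hn : 4 ≤ n)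
    (hcard : Nat.card D = 2 ^ n) (hsd : Cfsg.IsQuasiDihedral D) :
    ∃ σ : G, ∃ hd : TData D σ (2 * ((2 ^ (n - 3) : ℕ) : ℤ) - 1) (2 ^ (n - 3)), hd.IsSD := by
  obtain ⟨m, hm, hcard', x, y, hx, hy, hxy⟩ := hsd
  have hnm : m + 1 = n := Nat.pow_right_injective le_rfl (hcard'.symm.trans hcard)
  obtain ⟨a, rfl⟩ : ∃ a, m = a + 2 := ⟨m - 2, by omega⟩
  rw [show n - 3 = a by omega]
  have hq : 2 ≤ 2 ^ a := le_of_eq_of_le (pow_one 2).symm
    (Nat.pow_le_pow_right two_pos (by omega))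
  have hpa : 2 ^ (a + 2 - 1) - 1 = 2 * 2 ^ a - 1 := by
    rw [show a + 2 - 1 = a + 1 by omega, pow_succ']
  rw [hpa] at hxy
  have hconj1 : (y : G) * (x : G) * (y : G)⁻¹ = (x : G) ^ (2 * ((2 ^ a : ℕ) : ℤ) - 1) := by
    have := congrArg Subtype.val hxy
    push_cast at this
    rw [this, ← zpow_natCast, Nat.cast_sub (by omega)]
    push_cast
    rfl
  have hord : orderOf (x : G) = 4 * 2 ^ a := by
    rw [Subgroup.orderOf_coe, hx]; ring
  have hy2 : (y : G) * (y : G) = 1 := by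
    have := congrArg Subtype.val (hy ▸ pow_orderOf_eq_one y)
    simpa [pow_two] using this
  have hflip : ∀ i : ℤ,
      (y : G) * (x : G) ^ i * (y : G)⁻¹ = (x : G) ^ ((2 * ((2 ^ a : ℕ) : ℤ) - 1) * i) := fun i => by
    rw [← conj_zpow, hconj1, ← zpow_mul]
  have hycancel : (y : G)⁻¹ = (y : G) := inv_eq_of_mul_eq_one_right hy2
  have hyA : (y : G) ∉ Subgroup.zpowers (x : G) := by
    rintro ⟨i, hi⟩
    have h : (y : G) * x * (y : G)⁻¹ = x := by
      rw [← hi]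
      group
    rw [hconj1] at h
    nth_rewrite 2 [← zpow_one (x : G)] at h
    rw [zpow_eq_zpow_iff_modEq, hord, Int.modEq_iff_dvd] at h
    generalize 2 ^ a = qq at h hq
    have h2 := Int.eq_zero_of_abs_lt_dvd h (by rw [abs_lt]; push_cast; omega)
    omega
  have hA : (Subgroup.zpowers x).index = 2 := by
    have h := Subgroup.card_mul_index (Subgroup.zpowers x)
    rw [Nat.card_zpowers, hx, hcard', pow_succ 2 (a + 2)] at h
    exact Nat.eq_of_mul_eq_mul_left (Nat.two_pow_pos _) h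
  have : Fintype G := Fintype.ofFinite G
  have hmemA : ∀ {w : D}, (w : G) ∈ Subgroup.zpowers (x : G) ↔ w ∈ Subgroup.zpowers x :=
    fun {w} => H22.TICore.mem_zpowers_coe_iff
  have hform : ∀ w ∈ D, w ∉ Subgroup.zpowers (x : G) → ∃ j : ℤ, w = (x : G) ^ j * (y : G) := by
    intro w hw ho
    obtain ⟨j, hj⟩ := hmemA.2 ((Subgroup.mul_mem_iff_of_index_two hA
      (a := (⟨w, hw⟩ : D)) (b := y)).2 (iff_of_false (fun h => ho (hmemA.2 h))
        fun h => hyA (hmemA.2 h)))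
    refine ⟨j, ?_⟩
    push_cast at hj
    rw [show (x : G) ^ j = w * y from hj, mul_assoc, hy2, mul_one]
  refine ⟨(x : G), ⟨⟨a, rfl⟩, x.2, hord, ?_, fun w hw ho => ?_, fun w hw ho => ?_, Or.inr ⟨rfl, hq⟩⟩,
    rfl, hq, (y : G), y.2, hyA, hy2⟩
  · rw [hcard, ← hnm]; ring
  · obtain ⟨j, rfl⟩ := hform w hw ho
    rw [mul_inv_rev, show (x : G) ^ j * y * x * ((y : G)⁻¹ * ((x : G) ^ j)⁻¹) =
      (x : G) ^ j * ((y : G) * x * (y : G)⁻¹) * ((x : G) ^ j)⁻¹ by group, hconj1]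
    group
  · obtain ⟨j, rfl⟩ := hform w hw ho
    have e : (x : G) ^ j * (y : G) * ((x : G) ^ j * (y : G)) =
        (x : G) ^ (2 * ((2 ^ a : ℕ) : ℤ) * j) := by
      calc (x : G) ^ j * (y : G) * ((x : G) ^ j * (y : G))
          = (x : G) ^ j * ((y : G) * (x : G) ^ j * (y : G)⁻¹) := by
            rw [hycancel]; group
        _ = _ := by rw [hflip, ← zpow_add]; congr 1; ring
    rw [e]
    rcases Int.even_or_odd' j with ⟨l, rfl | rfl⟩
    · left
      rw [← orderOf_dvd_iff_zpow_eq_one, hord]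
      exact ⟨l, by push_cast; ring⟩
    · right
      rw [← zpow_natCast (x : G) (2 * 2 ^ a), zpow_eq_zpow_iff_modEq, hord, Int.modEq_iff_dvd]
      exact ⟨-l, by push_cast; ring⟩

end Cfsg.Agent.H40.Tame
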