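import Cfsg.Agent.H40.Tame.Group
import Cfsg.Agent.H22.StarFree
import Cfsg.Agent.H22.PairFusion
import Cfsg.Agent.H22.Star
import Cfsg.Agent.H40.RankOne

/-!
# Local blocks of a block with semidihedral or quaternion defect group

The block at the central involution, the uniqueness of the blocks below at an element with a
single class in the defect group, the conjugacy of `2`-parts into the defect group, and the column
of an outer involution.
-/

set_option autoImplicit false
set_option linter.unusedSectionVars false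

open scoped Classical

namespace Cfsg.Agent.H40.Tame

open Cfsg
open Cfsg.Agent.H22 (CZ IsMaxEl PLe elTop el cS cj pp sec blocksOf CarriesInto Below Carry
  IsBlockEl)
open Cfsg.Agent.H41 (ResField)

universe u

variable {G : Type u} [Group G] [Fintype G] {p : ℕ} [Fact p.Prime] {M : Ideal AlgInt}
  [M.IsMaximal] [CharP (ResField M) p] {B : Set (IrrCharacter G)} {D : Subgroup G}
  {e : MonoidAlgebra (ResField M) G}

/-- A singular element where a member is nonzero has its `p`-part conjugate into the defect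
group. -/
theorem exists_conj_pp_mem (hM : IsPModular p M) (hB : IsPBlock M B)
    (hD : IsDefectGroup p M B D) {χ : IrrCharacter G} (hχ : χ ∈ B) {g : G}
    (h0 : (χ : G → ℂ) g ≠ 0) : ∃ x : G, x * pp p g * x⁻¹ ∈ D := by
  obtain ⟨e, hm⟩ := H40.NilpotentBlocks.exists_isMaxEl_of_defect hM hB hD
  have hg := H22.isPPart_pp p g
  obtain ⟨j, hj⟩ := H22.orderOf_of_isPPart hg
  obtain ⟨y, hy, hyg⟩ := H22.exists_regular_of_isPPart hg
  generalize pp p g = x at hg hj y hyg
  subst hyg
  rw [← H22.sum_blockPart_sec (M := M) (H26.irr_isClassFunction χ) y] at h0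
  obtain ⟨c, hc, hne⟩ := Finset.exists_ne_zero_of_sum_ne_zero h0
  rcases H22.blockPart_sec_eq_zero_or_carries hM hB hχ hm hj (H22.mem_blocksOf.1 hc) with h | ⟨z, hz⟩
  · exact absurd (h y hy) hne
  · exact ⟨z, hz.le (H22.conj_mem_cS (Subgroup.mem_zpowers x))⟩

/-- At an element whose conjugates in the defect group are conjugate inside it, only one block
below induces the block. -/
theorem carried_unique (hM : IsPModular p M) (hB : IsPBlock M B)
    (hm : IsMaxEl p ⊤ (elTop M B) (D, e)) {x : G} (hxp : ∃ j, orderOf x = p ^ j)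
    (hcl : ∀ g : G, g * x * g⁻¹ ∈ D → ∃ d ∈ D, d * x * d⁻¹ = g * x * g⁻¹)
    {c c' : Set (IrrCharacter (CZ x))} (hc : IsPBlock M c)
    (hcar : CarriesInto p (D, e) x (el M (CZ x) c) 1) (hind : IsInducedBlock M (CZ x) c' B) :
    c' = c := by
  obtain ⟨j, hj⟩ := hxp
  have hab : Subgroup.zpowers x ≤
      Subgroup.centralizer (Subgroup.zpowers x : Set G) := by
    rw [H40.centralizer_zpowers_eq, Subgroup.zpowers_le, Subgroup.mem_centralizer_singleton_iff]
  have hbel : Below (G := G) (elTop M B) (Subgroup.zpowers x, el M (CZ x) c') :=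
    (H40.isInducedBlock_iff_below hM hB (IsPGroup.of_card (n := j) (by rw [Nat.card_zpowers, hj]))
      hab (CZ x) rfl hind.1).1 hind
  obtain ⟨g, hg⟩ := H22.exists_carries_of_below hB hm hj hind.1 hbel
  obtain ⟨d, hd, hde⟩ := hcl g (hg.le (H22.conj_mem_cS (Subgroup.mem_zpowers x)))
  have hgC : d⁻¹ * g ∈ CZ x := by
    show d⁻¹ * g ∈ Subgroup.centralizer (Subgroup.zpowers x : Set G)
    rw [H40.centralizer_zpowers_eq, Subgroup.mem_centralizer_singleton_iff]
    calc d⁻¹ * g * x = d⁻¹ * (g * x * g⁻¹) * g := by group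
      _ = d⁻¹ * (d * x * d⁻¹) * g := by rw [hde]
      _ = x * (d⁻¹ * g) := by group
  have he : cj d⁻¹ e = e :=
    H22.inv_of_supp_centralizer (Q := D) (by simpa using hm.pair.block.cent.supp) d⁻¹
      (inv_mem hd)
  have h1 := PLe.conj_mem hg (Subgroup.mem_top d⁻¹)
  dsimp only at h1
  rw [H22.cS_eq_self (Subgroup.le_normalizer (inv_mem hd)), he, ← H22.cS_mul,
    ← H22.cj_mul_apply, H22.cS_eq_self (Subgroup.centralizer_le_normalizer _ hgC),
    (H22.isBlockEl_el hind.1).cent.inv _ hgC] at h1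
  have h2 : PLe p ⊤ (Subgroup.zpowers x, el M (CZ x) c) (D, e) := by
    unfold H22.CarriesInto at hcar
    rwa [H22.cS_one, H22.cj_one_apply] at hcar
  exact H22.el_inj hind.1 hc (H22.ple_unique (H22.split M G) hm.pair h1 h2)

section Tame

variable [CharP (ResField M) 2] {σ : G} {c : ℤ} {q : ℕ}

/-- The defect group lies in the centraliser of the central involution. -/
theorem le_CZ_z (hd : TData D σ c q) : D ≤ CZ (σ ^ (2 * q)) := fun w hw => by
  show w ∈ Subgroup.centralizer (Subgroup.zpowers (σ ^ (2 * q)) : Set G)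
  rw [H40.centralizer_zpowers_eq, Subgroup.mem_centralizer_singleton_iff]
  exact hd.z_comm hw

/-- The block at the central involution. -/
theorem exists_central_block (hM : IsPModular 2 M) (hB : IsPBlock M B)
    (hD : IsDefectGroup 2 M B D) (hd : TData D σ c q) :
    ∃ b : Set (IrrCharacter (CZ (σ ^ (2 * q)))),
      IsInducedBlock M (CZ (σ ^ (2 * q))) b B ∧
      blockDefect 2 b = blockDefect 2 B ∧
      IsDefectGroup 2 M b (D.subgroupOf (CZ (σ ^ (2 * q)))) := by
  haveI : Fact (Nat.Prime 2) := ⟨Nat.prime_two⟩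
  have hS := H22.split M G
  have hb := H22.isBlockEl_elTop (M := M) hB
  obtain ⟨e, hm⟩ := H40.NilpotentBlocks.exists_isMaxEl_of_defect hM hB hD
  have hzD : σ ^ (2 * q) ∈ D := Subgroup.pow_mem _ hd.σ_mem _
  obtain ⟨b, hbb, hcar, hbel⟩ := H22.exists_carried_block hB hm hzD
  have hle : PLe 2 ⊤ (Subgroup.zpowers (σ ^ (2 * q)), el M (CZ (σ ^ (2 * q))) b) (D, e) := by
    unfold H22.CarriesInto at hcar
    rwa [H22.cS_one, H22.cj_one_apply] at hcar
  have hDC := le_CZ_z hd
  have hzC : σ ^ (2 * q) ∈ Subgroup.centralizer (D : Set G) :=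
    Subgroup.mem_centralizer_iff.2 fun y hy => hd.z_comm hy
  have hDel : H22.IsDefEl 2 (CZ (σ ^ (2 * q))) (el M (CZ (σ ^ (2 * q))) b)
      (D ⊓ CZ (σ ^ (2 * q))) :=
    (H22.defect_iff_max hS hb hm hle (Subgroup.centralizer_le_normalizer _)
      (H22.isBlockEl_el hbb)).2
      fun g _ => Subgroup.card_le_of_le (le_inf inf_le_left (inf_le_left.trans hDC))
  rw [inf_eq_left.2 hDC] at hDel
  refine ⟨b, H22.isInducedBlock_of_below hM hB (j := 1) (by rw [pow_one]; exact hd.orderOf_z) hbb hbel,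
    H22.blockDefect_eq_of_central hM hB hm hzD hzC hbb hcar,
    (H22.isDefectGroup_subgroupOf_iff hM hbb hDC).2 hDel⟩

/-- The data of the defect group inside a subgroup containing it. -/
theorem TData.subgroupOf (hd : TData D σ c q) {H : Subgroup G} (hDH : D ≤ H) :
    TData (D.subgroupOf H) (⟨σ, hDH hd.σ_mem⟩ : H) c q := by
  have hmem : ∀ w : H, (w : G) ∈ Subgroup.zpowers σ ↔
      w ∈ Subgroup.zpowers (⟨σ, hDH hd.σ_mem⟩ : H) :=
    fun w => H22.TICore.mem_zpowers_coe_iff (b := (⟨σ, hDH hd.σ_mem⟩ : H))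
  refine ⟨hd.pow, Subgroup.mem_subgroupOf.2 hd.σ_mem, ?_, ?_, fun w hw ho => ?_,
    fun w hw ho => ?_, hd.cform⟩
  · rw [← Subgroup.orderOf_coe]; exact hd.order
  · rw [Nat.card_congr (Subgroup.subgroupOfEquivOfLe hDH).toEquiv, hd.card]
  · refine Subtype.ext ?_
    push_cast
    exact hd.conj _ (Subgroup.mem_subgroupOf.1 hw) fun h => ho ((hmem w).1 h)
  · rcases hd.sq _ (Subgroup.mem_subgroupOf.1 hw) fun h => ho ((hmem w).1 h) with h | h
    · exact Or.inl (Subtype.ext (by push_cast; exact h))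
    · exact Or.inr (Subtype.ext (by push_cast; exact h))

/-- The outer involutions commute only with `1, z` and their products with themselves. -/
theorem TData.card_inf_centralizer_le (hd : TData D σ c q) (hsd : hd.IsSD) {w : G} (hw : w ∈ D)
    (hwA : w ∉ Subgroup.zpowers σ) :
    Nat.card (D ⊓ Subgroup.centralizer ({w} : Set G) : Subgroup G) ≤ 4 := by
  obtain ⟨hc, hq, -⟩ := hsd
  have hA : ∀ a ∈ Subgroup.zpowers σ, a * w = w * a → a = 1 ∨ a = σ ^ (2 * q) := by
    rintro a ⟨i, rfl⟩ h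
    have h1 := hd.pow_conj hw hwA i
    change σ ^ i * w = w * σ ^ i at h
    rw [← h, mul_inv_cancel_right, zpow_eq_zpow_iff_modEq, hd.order, Int.modEq_iff_dvd, hc] at h1
    have h1' : (2 : ℤ) * (2 * (q : ℤ)) ∣ 2 * (((q : ℤ) - 1) * i) := by
      refine (dvd_of_eq ?_).trans (h1.trans (dvd_of_eq ?_))
      · push_cast; ring
      · ring
    rw [mul_dvd_mul_iff_left (two_ne_zero : (2 : ℤ) ≠ 0)] at h1'
    obtain ⟨a, ha⟩ := hd.pow
    have hco : IsCoprime (2 * (q : ℤ)) ((q : ℤ) - 1) := by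
      have h0 : IsCoprime ((q : ℤ)) ((q : ℤ) - 1) := ⟨1, -1, by ring⟩
      refine IsCoprime.mul_left ?_ h0
      have hdq : (2 : ℤ) ∣ q := by
        rcases a with - | a
        · subst ha; simp at hq
        · rw [ha, pow_succ']; exact ⟨2 ^ a, by push_cast; ring⟩
      exact IsCoprime.of_isCoprime_of_dvd_left h0 hdq
    obtain ⟨t, ht⟩ := hco.dvd_of_dvd_mul_left h1'
    rcases Int.even_or_odd' t with ⟨l, rfl | rfl⟩
    · left
      rw [← orderOf_dvd_iff_zpow_eq_one, hd.order]
      exact ⟨l, by rw [ht]; push_cast; ring⟩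
    · right
      rw [← zpow_natCast, zpow_eq_zpow_iff_modEq, hd.order, Int.modEq_iff_dvd]
      exact ⟨-l, by rw [ht]; push_cast; ring⟩
  have hsub : ((D ⊓ Subgroup.centralizer ({w} : Set G) : Subgroup G) : Set G) ⊆
      (({1, σ ^ (2 * q), w, w * σ ^ (2 * q)} : Finset G) : Set G) := by
    intro a ha
    obtain ⟨haD, haC⟩ := Subgroup.mem_inf.1 ha
    rw [Subgroup.mem_centralizer_singleton_iff] at haC
    simp only [Finset.coe_insert, Finset.coe_singleton, Set.mem_insert_iff, Set.mem_singleton_iff]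
    by_cases haA : a ∈ Subgroup.zpowers σ
    · rcases hA a haA haC with h | h <;> simp [h]
    · have h2 : w⁻¹ * a ∈ Subgroup.zpowers σ :=
        (hd.mul_mem_iff (inv_mem hw) haD).2
          (iff_of_false (fun h => hwA ((Subgroup.inv_mem_iff _).1 h)) haA)
      have h3 : w⁻¹ * a * w = w * (w⁻¹ * a) := by
        rw [mul_assoc, haC, inv_mul_cancel_left, mul_inv_cancel_left]
      rcases hA _ h2 h3 with h | h
      · rw [inv_mul_eq_one] at h; simp [h]
      · rw [inv_mul_eq_iff_eq_mul] at h; simp [h]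
  have h4 : ({1, σ ^ (2 * q), w, w * σ ^ (2 * q)} : Finset G).card ≤ 4 := by
    refine (Finset.card_insert_le _ _).trans (Nat.succ_le_succ ?_)
    refine (Finset.card_insert_le _ _).trans (Nat.succ_le_succ ?_)
    exact (Finset.card_insert_le _ _).trans (Nat.succ_le_succ (by simp))
  refine le_trans (le_of_eq_of_le ?_ (Set.ncard_le_ncard hsub (Finset.finite_toSet _))) ?_
  · exact (Nat.card_coe_set_eq _)
  · rw [Set.ncard_coe_finset]; exact h4

/-- The column of an outer involution has rank one when `z` is central. -/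
theorem exists_column_vector (hM : IsPModular 2 M) (hB : IsPBlock M B)
    (hD : IsDefectGroup 2 M B D) (hd : TData D σ c q) (hsd : hd.IsSD)
    (hz : ∀ g : G, g * σ ^ (2 * q) = σ ^ (2 * q) * g) :
    ∃ lam : IrrCharacter G → ℂ, ∀ g : G, 2 ∣ orderOf g →
      σ ^ (2 * q) ∉ Subgroup.zpowers g → ∃ s : ℂ, ∀ χ ∈ B, (χ : G → ℂ) g = s * lam χ := by
  haveI : Fact (Nat.Prime 2) := ⟨Nat.prime_two⟩
  obtain ⟨τ, hτ, hτA, hτ2⟩ := hsd.2.2
  set z := σ ^ (2 * q) with hzdef
  have hzA : z ∈ Subgroup.zpowers σ := Subgroup.pow_mem _ (Subgroup.mem_zpowers σ) _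
  have hτo : orderOf τ = 2 :=
    orderOf_eq_prime (by rw [pow_two, hτ2]) fun e => hτA (e ▸ one_mem _)
  have hS := H22.split M G
  have hb := H22.isBlockEl_elTop (M := M) hB
  obtain ⟨e, hm⟩ := H40.NilpotentBlocks.exists_isMaxEl_of_defect hM hB hD
  -- conjugates of `τ` in `D`
  have hcl : ∀ g : G, g * τ * g⁻¹ ∈ D → ∃ d ∈ D, d * τ * d⁻¹ = g * τ * g⁻¹ := by
    intro g hg
    have ho : orderOf (g * τ * g⁻¹) = 2 := by
      rw [← MulAut.conj_apply, MulEquiv.orderOf_eq]; exact hτo
    refine hd.exists_conj_involution hsd hτ hτA hτ2 hg (fun hA => hτA ?_) ?_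
    · have h1 : g * τ * g⁻¹ = z :=
        H22.TICore.eq_of_mem_zpowers (g := σ) hd.orderOf_z ho hzA hA
      have h2 : τ = z := by
        rw [mul_inv_eq_iff_eq_mul, ← hz g] at h1
        exact mul_left_cancel h1
      exact h2 ▸ hzA
    · rw [← pow_two, ← ho]; exact pow_orderOf_eq_one _
  obtain ⟨b, hbb, hcar, hbel⟩ := H22.exists_carried_block hB hm hτ
  have hle : PLe 2 ⊤ (Subgroup.zpowers τ, el M (CZ τ) b) (D, e) := by
    unfold H22.CarriesInto at hcar
    rwa [H22.cS_one, H22.cj_one_apply] at hcar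
  -- its defect group is a central four group
  set V := D ⊓ CZ τ with hV
  have hDel : H22.IsDefEl 2 (CZ τ) (el M (CZ τ) b) V := by
    refine (H22.defect_iff_max hS hb hm hle (Subgroup.centralizer_le_normalizer _)
      (H22.isBlockEl_el hbb)).2 fun g hg => ?_
    have hgD : g * τ * g⁻¹ ∈ D :=
      (H22.carry_le hg).2 (H22.conj_mem_cS (Subgroup.mem_zpowers τ))
    obtain ⟨d, hdD, hde⟩ := hcl g hgD
    have hA' : g * τ * g⁻¹ ∉ Subgroup.zpowers σ := fun h => hτA (by
      have h1 : g * τ * g⁻¹ = z := H22.TICore.eq_of_mem_zpowers (g := σ) hd.orderOf_z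
        (by rw [← MulAut.conj_apply, MulEquiv.orderOf_eq]; exact hτo) hzA h
      rw [mul_inv_eq_iff_eq_mul, ← hz g] at h1
      exact (mul_left_cancel h1) ▸ hzA)
    have h4 := hd.card_inf_centralizer_le hsd hgD hA'
    rw [← H22.cS_centralizer_singleton, ← H40.centralizer_zpowers_eq] at h4
    refine le_trans h4 ?_
    -- `1, z, τ, τ z` lie in `V`
    have hzD : z ∈ D := hd.zpowers_le hzA
    have hτC : τ ∈ CZ τ := by
      show τ ∈ Subgroup.centralizer (Subgroup.zpowers τ : Set G)
      rw [H40.centralizer_zpowers_eq, Subgroup.mem_centralizer_singleton_iff]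
    have hzC : z ∈ CZ τ := by
      show z ∈ Subgroup.centralizer (Subgroup.zpowers τ : Set G)
      rw [H40.centralizer_zpowers_eq, Subgroup.mem_centralizer_singleton_iff]
      exact (hz τ).symm
    have hsub : ({1, z, τ, τ * z} : Finset G) ⊆ Finset.univ.filter (· ∈ V) := by
      intro w hw
      simp only [Finset.mem_insert, Finset.mem_singleton] at hw
      rcases hw with rfl | rfl | rfl | rfl <;>
        simp [hV, hzD, hτ, hτC, hzC, one_mem, mul_mem hτ hzD, mul_mem hτC hzC]
    have hz1 : z ≠ 1 := fun e => by have := hd.orderOf_z; rw [← hzdef, e, orderOf_one] at this; omega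
    have hτz : τ ≠ z := fun e => hτA (e ▸ hzA)
    have hτ1 : τ ≠ 1 := fun e => hτA (e ▸ one_mem _)
    have hp1 : τ * z ≠ 1 := fun h => hτA (by
      rw [show τ = z⁻¹ from eq_inv_of_mul_eq_one_left h]; exact inv_mem hzA)
    have hc4 : ({1, z, τ, τ * z} : Finset G).card = 4 := by
      rw [Finset.card_insert_of_notMem, Finset.card_insert_of_notMem, Finset.card_insert_of_notMem,
        Finset.card_singleton]
      · simpa using hz1
      · simp only [Finset.mem_insert, Finset.mem_singleton, not_or]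
        exact ⟨Ne.symm hτz, fun h => hτ1 (mul_eq_right.1 h.symm)⟩
      · simp only [Finset.mem_insert, Finset.mem_singleton, not_or]
        exact ⟨Ne.symm hz1, Ne.symm hτ1, Ne.symm hp1⟩
    calc 4 = ({1, z, τ, τ * z} : Finset G).card := hc4.symm
      _ ≤ (Finset.univ.filter (· ∈ V)).card := Finset.card_le_card hsub
      _ = Nat.card V := by rw [← Fintype.card_subtype, Nat.card_eq_fintype_card]
  have hVc : ∀ w ∈ V, ∀ k : CZ τ, (k : G) * w = w * k := by
    intro w hw k
    obtain ⟨hwD, hwC⟩ := Subgroup.mem_inf.1 hw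
    have hwt : w * τ = τ * w := by
      have : w ∈ Subgroup.centralizer (Subgroup.zpowers τ : Set G) := hwC
      rwa [H40.centralizer_zpowers_eq, Subgroup.mem_centralizer_singleton_iff] at this
    have hkτ : (k : G) * τ = τ * k := by
      have : (k : G) ∈ Subgroup.centralizer (Subgroup.zpowers τ : Set G) := k.2
      rwa [H40.centralizer_zpowers_eq, Subgroup.mem_centralizer_singleton_iff] at this
    -- `w` is one of four
    by_cases hwA : w ∈ Subgroup.zpowers σ
    · obtain ⟨i, rfl⟩ := hwA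
      have h1 := hd.pow_conj hτ hτA i
      rw [← hwt, mul_inv_cancel_right] at h1
      by_cases h2 : σ ^ i = 1
      · show (k : G) * σ ^ i = σ ^ i * k
        rw [h2, mul_one, one_mul]
      have hcase : σ ^ i * σ ^ i = 1 := by
        rw [zpow_eq_zpow_iff_modEq, hd.order, Int.modEq_iff_dvd, hsd.1] at h1
        rw [← zpow_add, ← orderOf_dvd_iff_zpow_eq_one, hd.order]
        have hq1 : (2 : ℤ) * q ∣ ((q : ℤ) - 1) * i := by
          refine (mul_dvd_mul_iff_left (two_ne_zero : (2 : ℤ) ≠ 0)).1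
            ((dvd_of_eq ?_).trans (h1.trans (dvd_of_eq ?_)))
          · push_cast; ring
          · ring
        have hco : IsCoprime (2 * (q : ℤ)) ((q : ℤ) - 1) := by
          obtain ⟨a, ha⟩ := hd.pow
          have hq2 := hsd.2.1
          have h0 : IsCoprime ((q : ℤ)) ((q : ℤ) - 1) := ⟨1, -1, by ring⟩
          refine IsCoprime.mul_left ?_ h0
          have hdq : (2 : ℤ) ∣ q := by
            rcases a with - | a
            · subst ha; simp at hq2
            · rw [ha, pow_succ']; exact ⟨2 ^ a, by push_cast; ring⟩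
          exact IsCoprime.of_isCoprime_of_dvd_left h0 hdq
        obtain ⟨t, ht⟩ := hco.dvd_of_dvd_mul_left hq1
        exact ⟨t, by rw [ht]; push_cast; ring⟩
      have h3 : σ ^ i = z := H22.TICore.eq_of_mem_zpowers (g := σ) hd.orderOf_z
        (orderOf_eq_prime (by rw [pow_two, hcase]) h2) hzA ⟨i, rfl⟩
      show (k : G) * σ ^ i = σ ^ i * k
      rw [h3]
      exact hz k
    · have h2 : τ⁻¹ * w ∈ Subgroup.zpowers σ :=
        (hd.mul_mem_iff (inv_mem hτ) hwD).2
          (iff_of_false (fun h => hτA ((Subgroup.inv_mem_iff _).1 h)) hwA)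
      have h3 : τ⁻¹ * w = 1 ∨ τ⁻¹ * w = z := by
        obtain ⟨i, hi⟩ := h2
        have hi2 : σ ^ i = τ⁻¹ * w := hi
        have hcom : σ ^ i * τ = τ * σ ^ i := by
          rw [hi2, mul_assoc, hwt, inv_mul_cancel_left, mul_inv_cancel_left]
        have h1 := hd.pow_conj hτ hτA i
        rw [← hcom, mul_inv_cancel_right, zpow_eq_zpow_iff_modEq, hd.order, Int.modEq_iff_dvd,
          hsd.1] at h1
        by_cases h2' : σ ^ i = 1
        · left; rw [← hi2, h2']
        right
        rw [← hi2]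
        have hq1 : (2 : ℤ) * q ∣ ((q : ℤ) - 1) * i := by
          refine (mul_dvd_mul_iff_left (two_ne_zero : (2 : ℤ) ≠ 0)).1
            ((dvd_of_eq ?_).trans (h1.trans (dvd_of_eq ?_)))
          · push_cast; ring
          · ring
        have hco : IsCoprime (2 * (q : ℤ)) ((q : ℤ) - 1) := by
          obtain ⟨a, ha⟩ := hd.pow
          have hq2 := hsd.2.1
          have h0 : IsCoprime ((q : ℤ)) ((q : ℤ) - 1) := ⟨1, -1, by ring⟩
          refine IsCoprime.mul_left ?_ h0
          have hdq : (2 : ℤ) ∣ q := by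
            rcases a with - | a
            · subst ha; simp at hq2
            · rw [ha, pow_succ']; exact ⟨2 ^ a, by push_cast; ring⟩
          exact IsCoprime.of_isCoprime_of_dvd_left h0 hdq
        obtain ⟨t, ht⟩ := hco.dvd_of_dvd_mul_left hq1
        refine H22.TICore.eq_of_mem_zpowers (g := σ) hd.orderOf_z
          (orderOf_eq_prime ?_ h2') hzA ⟨i, rfl⟩
        rw [pow_two, ← zpow_add, ← orderOf_dvd_iff_zpow_eq_one, hd.order]
        exact ⟨t, by rw [ht]; push_cast; ring⟩
      rcases h3 with h3 | h3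
      · rw [inv_mul_eq_one] at h3
        rw [← h3]
        exact hkτ
      · rw [inv_mul_eq_iff_eq_mul] at h3
        rw [h3, ← mul_assoc, hkτ, mul_assoc, hz k, ← mul_assoc]
  have hVle : V ≤ CZ τ := inf_le_right
  have hl : blockRank 2 b = 1 := by
    refine H40.blockRank_eq_one_of_centric hM (hDel.pGroup.comap_subtype) ?_ hbb
      ((H22.isDefectGroup_subgroupOf_iff hM hbb hVle).2 hDel)
    refine top_le_iff.1 fun k _ => Subgroup.mem_sup_right ?_
    rw [Subgroup.mem_centralizer_iff]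
    exact fun w hw => Subtype.ext (hVc _ (Subgroup.mem_subgroupOf.1 hw) k).symm
  obtain ⟨φ, d, -, -, hdec, -⟩ := H40.exists_rank_one_data hM hbb hl
  refine ⟨fun χ => ∑ ψ ∈ H42.blockFinset b,
    classInner (sec τ (χ : G → ℂ)) (ψ : CZ τ → ℂ) * (d ψ : ℂ), fun g hg hgz => ?_⟩
  by_cases hall : ∀ χ ∈ B, (χ : G → ℂ) g = 0
  · exact ⟨0, fun χ hχ => by rw [hall χ hχ, zero_mul]⟩
  push Not at hall
  obtain ⟨χ₀, hχ₀, hne⟩ := hall
  obtain ⟨x, hx⟩ := exists_conj_pp_mem hM hB hD hχ₀ hne
  obtain ⟨y₀, hy₀, hcy, hppow, hreg⟩ := H22.isPPart_pp 2 g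
  set v := x * pp 2 g * x⁻¹ with hv
  have hv1 : v ≠ 1 := by
    intro e
    rw [hv, mul_inv_eq_one] at e
    have h1 : pp 2 g = 1 := by simpa using mul_left_cancel (a := x) (e.trans (mul_one x).symm)
    rw [h1, one_mul] at hy₀
    exact hreg (hy₀ ▸ hg)
  have hzv : z ∉ Subgroup.zpowers v := by
    rintro ⟨i, hi⟩
    refine hgz ?_
    change v ^ i = z at hi
    rw [hv, conj_zpow, mul_inv_eq_iff_eq_mul, ← hz x] at hi
    rw [← mul_left_cancel hi, pp, ← zpow_natCast, ← zpow_mul]
    exact Subgroup.zpow_mem _ (Subgroup.mem_zpowers g) _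
  have hvA : v ∉ Subgroup.zpowers σ := by
    intro hA
    obtain ⟨i, hi⟩ := hppow
    have hvo : orderOf v = 2 ^ i := by rw [hv, ← MulAut.conj_apply, MulEquiv.orderOf_eq, hi]
    rcases i with - | i
    · exact hv1 (orderOf_eq_one_iff.1 (by rw [hvo, pow_zero]))
    refine hzv ?_
    have ho : orderOf (v ^ 2 ^ i) = 2 := by
      rw [orderOf_pow' _ (pow_ne_zero _ two_ne_zero), hvo,
        Nat.gcd_eq_right (pow_dvd_pow 2 (Nat.le_succ i)), pow_succ,
        Nat.mul_div_cancel_left _ (Nat.two_pow_pos i)]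
    have he : v ^ 2 ^ i = z :=
      H22.TICore.eq_of_mem_zpowers (g := σ) hd.orderOf_z ho hzA (Subgroup.pow_mem _ hA _)
    rw [← he]
    exact Subgroup.pow_mem _ (Subgroup.mem_zpowers v) _
  have hv2 : v * v = 1 := by
    rcases hd.sq v hx hvA with h | h
    · exact h
    · refine absurd ?_ hzv
      rw [show z = v * v from h.symm]
      exact Subgroup.mul_mem _ (Subgroup.mem_zpowers v) (Subgroup.mem_zpowers v)
  obtain ⟨d', hd'D, hd'⟩ := hd.exists_conj_involution hsd hx hvA hv2 hτ hτA hτ2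
  set w := d' * x with hw
  have hwpp : w * pp 2 g * w⁻¹ = τ := by rw [← hd', hv, hw]; group
  have hy1 : w * y₀ * w⁻¹ ∈ CZ τ := by
    show w * y₀ * w⁻¹ ∈ Subgroup.centralizer (Subgroup.zpowers τ : Set G)
    rw [H40.centralizer_zpowers_eq, Subgroup.mem_centralizer_singleton_iff, ← hwpp]
    calc w * y₀ * w⁻¹ * (w * pp 2 g * w⁻¹) = w * (y₀ * pp 2 g) * w⁻¹ := by group
      _ = w * (pp 2 g * y₀) * w⁻¹ := by rw [hcy.eq]
      _ = _ := by group
  set y : CZ τ := ⟨w * y₀ * w⁻¹, hy1⟩ with hy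
  have hyreg : ¬ 2 ∣ orderOf y := by
    rw [← Subgroup.orderOf_coe]
    show ¬ 2 ∣ orderOf (w * y₀ * w⁻¹)
    rw [← MulAut.conj_apply, MulEquiv.orderOf_eq]
    exact hreg
  refine ⟨φ y, fun χ hχ => ?_⟩
  have hval : (χ : G → ℂ) g = (χ : G → ℂ) (τ * (y : G)) := by
    refine (H26.irr_eq_of_isConj χ (isConj_iff.2 ⟨w, ?_⟩))
    show w * g * w⁻¹ = τ * (w * y₀ * w⁻¹)
    rw [← hwpp]
    calc w * g * w⁻¹ = w * (pp 2 g * y₀) * w⁻¹ := by rw [hy₀]
      _ = _ := by group
  rw [hval, ← H22.sum_blockPart_sec (M := M) (H26.irr_isClassFunction χ) y,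
    Finset.sum_eq_single b ?_ (fun h => absurd (H22.mem_blocksOf.2 hbb) h)]
  · rw [H32.blockPart_eq_sum, Finset.mul_sum]
    refine Finset.sum_congr (by ext; simp [H42.mem_blockFinset]) fun ψ hψ => ?_
    rw [hdec ψ (H42.mem_blockFinset.1 (by simpa [H42.mem_blockFinset] using hψ)) y hyreg]
    ring
  · intro b' hb' hne'
    by_contra h0
    refine hne' (carried_unique hM hB hm ⟨1, by rw [pow_one]; exact hτo⟩ hcl hbb hcar ?_)
    refine H22.isInducedBlock_of_below hM hB (j := 1) (by rw [pow_one]; exact hτo)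
      (H22.mem_blocksOf.1 hb') ?_
    by_contra hbel'
    exact h0 (H22.blockPart_sec_eq_zero_of_not_below hM hB hχ (j := 1) (by rw [pow_one]; exact hτo)
      (H22.mem_blocksOf.1 hb') hbel' hyreg)

end Tame

end Cfsg.Agent.H40.Tame
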