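import Cfsg.Agent.H22.TICore
import Cfsg.Agent.H32.Contributions

/-!
# Inducing class functions of a block from the elements powering into a `p`-element

For a subgroup `K` containing the centraliser of a `p`-element `u` and controlling the conjugation
of the elements having `u` as a power, and a block `c` of `K` inducing `B`, the class functions of
`c` living at those elements induce isometrically into the span of `B`.
-/

set_option autoImplicit false
set_option linter.unusedSectionVars false

open scoped ComplexConjugate Classical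

namespace Cfsg.Agent.H40.Tame

open Cfsg
open Cfsg.Agent.H22 (pp pp_eq isPPart_pp)
open Cfsg.Agent.H41 (ResField)

variable {G : Type*} [Group G] [Fintype G] {p : ℕ} [hp : Fact p.Prime]

/-- The setting. -/
structure TISet (p : ℕ) (M : Ideal AlgInt) (B : Set (IrrCharacter G)) (K : Subgroup G) (u : G)
    (c : Set (IrrCharacter K)) : Prop where
  hM : IsPModular p M
  ind : IsInducedBlock M K c B
  ppow : ∃ j, orderOf u = p ^ j
  ne_one : u ≠ 1
  cent : Subgroup.centralizer ({u} : Set G) ≤ K
  ti : ∀ g x : G, u ∈ Subgroup.zpowers g → u ∈ Subgroup.zpowers (x * g * x⁻¹) → x ∈ K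

/-- A class function of the block living at the elements having `u` as a power. -/
structure Supported {K : Subgroup G} (u : G) (c : Set (IrrCharacter K)) (f : K → ℂ) : Prop where
  cls : IsClassFunction K f
  span : ∀ φ : IrrCharacter K, φ ∉ c → classInner f (φ : K → ℂ) = 0
  supp : ∀ k : K, u ∉ Subgroup.zpowers (k : G) → f k = 0

theorem zpowers_pp_of_ppow {H : Type*} [Group H] [Finite H] {u g : H}
    (hu : ∃ j, orderOf u = p ^ j) (h : u ∈ Subgroup.zpowers g) :
    u ∈ Subgroup.zpowers (pp p g) := by
  obtain ⟨i, hi⟩ := h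
  obtain ⟨j, hj⟩ := hu
  have h1 : pp p u = u := pp_eq ⟨1, (mul_one u), Commute.one_right u, ⟨j, hj⟩,
    by simpa using hp.out.one_lt.ne'⟩
  refine ⟨i, ?_⟩
  show pp p g ^ i = u
  rw [← h1, pp, pp, ← hi]
  show (g ^ _) ^ i = (g ^ i) ^ _
  rw [← zpow_natCast, ← zpow_natCast (g ^ i), ← zpow_mul, ← zpow_mul, mul_comm]

variable {M : Ideal AlgInt} {B : Set (IrrCharacter G)} {K : Subgroup G} {u : G}
  {c : Set (IrrCharacter K)} (S : TISet p M B K u c)

omit hp in
theorem Supported.add {f f' : K → ℂ} (hf : Supported u c f) (hf' : Supported u c f') :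
    Supported u c (f + f') :=
  ⟨fun a b => by simp [hf.cls a b, hf'.cls a b],
    fun φ hφ => by rw [H26.classInner_add_left, hf.span φ hφ, hf'.span φ hφ, add_zero],
    fun k hk => by simp [hf.supp k hk, hf'.supp k hk]⟩

omit hp in
theorem Supported.smul {f : K → ℂ} (hf : Supported u c f) (a : ℂ) : Supported u c (a • f) :=
  ⟨fun x y => by simp [hf.cls x y],
    fun φ hφ => by rw [H26.classInner_smul_left, hf.span φ hφ, mul_zero],
    fun k hk => by simp [hf.supp k hk]⟩

/-- The coefficient of the induced function. -/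
noncomputable def coef (K : Subgroup G) (f : K → ℂ) (χ : IrrCharacter G) : ℂ :=
  classInner f (fun k : K => (χ : G → ℂ) k)

omit hp in
theorem classInner_ind {f : K → ℂ} (χ : IrrCharacter G) :
    classInner (indFun K f) (χ : G → ℂ) = coef K f χ :=
  H25.classInner_indFun_left _ _ _ (H26.irr_isClassFunction χ)

omit hp in
/-- Only the members of `c` enter the coefficient. -/
theorem coef_eq_sum {f : K → ℂ} (hf : Supported u c f) (χ : IrrCharacter G) :
    coef K f χ = ∑ φ ∈ Finset.univ.filter (· ∈ c),
      classInner f (φ : K → ℂ) * conj (classInner (fun k : K => (χ : G → ℂ) k) (φ : K → ℂ)) := by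
  rw [coef]
  conv_lhs => rw [H26.class_function_expansion f hf.cls]
  rw [H26.classInner_sum_left, ← Finset.sum_subset (Finset.subset_univ _) fun φ _ hφ => by
    rw [H26.classInner_smul_left, hf.span φ (fun h => hφ (Finset.mem_filter.2 ⟨Finset.mem_univ _, h⟩)), zero_mul]]
  refine Finset.sum_congr rfl fun φ _ => ?_
  rw [H26.classInner_smul_left, ← H26.classInner_comm]

include S

theorem indFun_on_set {f : K → ℂ} (hf : Supported u c f) {k : K}
    (hk : u ∈ Subgroup.zpowers (k : G)) : indFun K f k = f k := by
  refine H25.indFun_apply_eq_self _ _ hf.cls k fun x hx => ?_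
  by_cases hm : x⁻¹ * (k : G) * x ∈ K
  · rw [H25.extendByZero_of_mem _ _ hm]
    refine hf.supp _ fun h' => hx (inv_mem_iff.1 ?_)
    exact S.ti _ _ hk (by simpa using h')
  · exact H25.extendByZero_of_notMem _ _ hm

omit S hp in
theorem indFun_eq_zero {f : K → ℂ} (hf : Supported u c f) {g : G}
    (hg : ∀ x : G, u ∉ Subgroup.zpowers (x⁻¹ * g * x)) : indFun K f g = 0 := by
  rw [H25.indFun_apply]
  refine mul_eq_zero_of_right _ (Finset.sum_eq_zero fun x _ => ?_)
  by_cases hx : x⁻¹ * g * x ∈ K
  · rw [H25.extendByZero_of_mem _ _ hx]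
    exact hf.supp _ (hg x)
  · exact H25.extendByZero_of_notMem _ _ hx

theorem indFun_eq_zero_regular {f : K → ℂ} (hf : Supported u c f) {g : G}
    (hg : ¬ p ∣ orderOf g) : indFun K f g = 0 := by
  refine indFun_eq_zero hf fun x h => hg ?_
  obtain ⟨j, hj⟩ := S.ppow
  have hj0 : j ≠ 0 := fun e => S.ne_one (orderOf_eq_one_iff.1 (by rw [hj, e, pow_zero]))
  have h1 := orderOf_dvd_of_mem_zpowers h
  have he : orderOf (x⁻¹ * g * x) = orderOf g := by
    rw [show x⁻¹ * g * x = MulAut.conj x⁻¹ g by simp, MulEquiv.orderOf_eq]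
  rw [he, hj] at h1
  exact (dvd_pow_self p hj0).trans h1

/-- Outside the block the coefficient vanishes. -/
theorem coef_eq_zero {f : K → ℂ} (hf : Supported u c f) {χ : IrrCharacter G} (hχ : χ ∉ B) :
    coef K f χ = 0 := by
  have := S.hM.2.1
  have := H41.IsPModular.charP S.hM
  have hres : IsClassFunction K (fun k : K => (χ : G → ℂ) k) :=
    H26.isClassFunction_of_isCharacter (H26.isCharacter_comp (H26.irr_isCharacter χ) K.subtype)
  have h1 : coef K f χ = classInner f (blockPart c (fun k : K => (χ : G → ℂ) k)) := by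
    have hb : blockPart c (fun k : K => (χ : G → ℂ) k) = ∑ φ ∈ Finset.univ.filter (· ∈ c),
        classInner (fun k : K => (χ : G → ℂ) k) (φ : K → ℂ) • (φ : K → ℂ) := by
      funext k
      rw [H32.blockPart_eq_sum]
      simp [Finset.sum_apply]
    rw [coef_eq_sum hf, hb, H26.classInner_sum_right]
    refine Finset.sum_congr rfl fun φ _ => ?_
    rw [H26.classInner_smul_right, mul_comm]
  rw [h1, classInner]
  refine mul_eq_zero_of_right _ (Finset.sum_eq_zero fun k _ => ?_)
  by_cases hk : u ∈ Subgroup.zpowers (k : G)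
  · rw [H40.blockPart_eq_sum c hres k,
      show ∑ h : K, blockCoeff c h * (χ : G → ℂ) ((h * k : K) : G) =
        ∑ h : K, blockCoeff c h * (χ : G → ℂ) ((h : G) * (k : G)) from rfl,
      H40.sum_blockCoeff_mul_eq_zero S.hM (H40.blockClosed_of_isPBlock S.ind.1)
        (H40.blockClosed_of_isPBlock S.ind.2.1) (fun ψ hψ => ?_) (fun w hw => ?_) hχ,
      map_zero, mul_zero]
    · obtain ⟨χ', hχ'⟩ := H41.IsPBlock.nonempty S.ind.2.1
      rw [H40.omegaBar_restrictZ_of_isInducedBlock S.ind hψ hχ', H40.omegaBar_setLocIdem,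
        if_pos hχ']
    · rw [← pp_eq hw]
      intro x hx
      refine S.cent ?_
      rw [Subgroup.mem_centralizer_singleton_iff] at hx ⊢
      obtain ⟨i, hi⟩ := zpowers_pp_of_ppow S.ppow hk
      rw [← hi]
      exact ((show Commute x (pp p (k : G)) from hx).zpow_right i).eq
  · rw [hf.supp k hk, zero_mul]

/-- The isometry. -/
theorem sum_coef_mul {f f' : K → ℂ} (hf : Supported u c f) (hf' : Supported u c f') :
    ∑ χ ∈ H42.blockFinset B, coef K f χ * conj (coef K f' χ) = classInner f f' := by
  rw [Finset.sum_subset (Finset.subset_univ _) fun χ _ hχ => by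
    rw [coef_eq_zero S hf (fun h => hχ (H42.mem_blockFinset.2 h)), zero_mul]]
  have hI := H25.isClassFunction_indFun K f'
  calc ∑ χ : IrrCharacter G, coef K f χ * conj (coef K f' χ)
      = classInner (indFun K f) (indFun K f') := by
        conv_rhs => arg 2; rw [H26.class_function_expansion _ hI]
        rw [H26.classInner_sum_right]
        exact Finset.sum_congr rfl fun χ _ => by
          rw [H26.classInner_smul_right, classInner_ind, classInner_ind, mul_comm]
    _ = classInner f f' := by
        rw [H25.classInner_indFun_left _ _ _ hI, classInner, classInner]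
        congr 1
        refine Finset.sum_congr rfl fun k _ => ?_
        by_cases hk : u ∈ Subgroup.zpowers (k : G)
        · rw [indFun_on_set S hf' hk]
        · rw [hf.supp k hk, zero_mul, zero_mul]

/-- The induced function as a combination of the members of the block. -/
theorem sum_coef_smul {f : K → ℂ} (hf : Supported u c f) (g : G) :
    ∑ χ ∈ H42.blockFinset B, coef K f χ * (χ : G → ℂ) g = indFun K f g := by
  rw [Finset.sum_subset (Finset.subset_univ _) fun χ _ hχ => by
    rw [coef_eq_zero S hf (fun h => hχ (H42.mem_blockFinset.2 h)), zero_mul]]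
  conv_rhs => rw [H26.class_function_expansion _ (H25.isClassFunction_indFun K f)]
  rw [Finset.sum_apply]
  exact Finset.sum_congr rfl fun χ _ => by rw [classInner_ind]; rfl

end Cfsg.Agent.H40.Tame
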